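import Mathlib

/-!
# Arithmetic for the bound on nilpotent subgroups of symmetric groups

`e n` is the 2-adic valuation of `n!`, `B n` is `2^(e n)` unless `n ≡ 3 (mod 4)`, where it is `3 * 2^(e (n-3))`.
-/

set_option autoImplicit false

namespace Cfsg.Agent.Lib.NilpSym

open Nat

def e (n : ℕ) : ℕ := (n !).factorization 2

def B (n : ℕ) : ℕ := if n % 4 = 3 then 3 * 2 ^ e (n - 3) else 2 ^ e n

lemma e_add (a b : ℕ) : e a + e b ≤ e (a + b) := by
  have h := Nat.factorial_mul_factorial_dvd_factorial_add a b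
  have h1 := (Nat.factorization_le_iff_dvd (mul_ne_zero a.factorial_ne_zero b.factorial_ne_zero)
    (a + b).factorial_ne_zero).2 h 2
  rw [Nat.factorization_mul a.factorial_ne_zero b.factorial_ne_zero] at h1
  simpa [e] using h1

lemma e_succ (n : ℕ) : e (n + 1) = e n + (n + 1).factorization 2 := by
  unfold e
  rw [Nat.factorial_succ, Nat.factorization_mul (Nat.succ_ne_zero n) n.factorial_ne_zero]
  simp [add_comm]

lemma v_odd {k : ℕ} (h : k % 2 = 1) : k.factorization 2 = 0 :=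
  Nat.factorization_eq_zero_of_not_dvd (by omega)

lemma v_two {k : ℕ} (h : k % 4 = 2) : k.factorization 2 = 1 := by
  obtain ⟨j, rfl⟩ : ∃ j, k = 2 * (2 * j + 1) := ⟨k / 4, by omega⟩
  rw [Nat.factorization_mul (by norm_num) (by omega), Finsupp.add_apply,
    Nat.Prime.factorization_self Nat.prime_two, v_odd (k := 2 * j + 1) (by omega)]

lemma v_four {k : ℕ} (h : k % 4 = 0) (hk : k ≠ 0) : 2 ≤ k.factorization 2 := by
  have : 2 ^ 2 ∣ k := by omega
  exact (Nat.Prime.pow_dvd_iff_le_factorization Nat.prime_two hk).1 this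

def c (r : ℕ) : ℕ := if r = 3 then 3 else if r = 2 then 2 else 1

lemma e41 (k : ℕ) : e (4 * k + 1) = e (4 * k) := by
  rw [e_succ, v_odd (by omega), add_zero]

lemma e42 (k : ℕ) : e (4 * k + 2) = e (4 * k) + 1 := by
  rw [show 4 * k + 2 = 4 * k + 1 + 1 by ring, e_succ, e41, show 4 * k + 1 + 1 = 4 * k + 2 by ring, v_two (by omega)]

lemma e43 (k : ℕ) : e (4 * k + 3) = e (4 * k) + 1 := by
  rw [show 4 * k + 3 = 4 * k + 2 + 1 by ring, e_succ, e42, show 4 * k + 2 + 1 = 4 * k + 3 by ring, v_odd (by omega),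
    add_zero]

lemma e44 (k : ℕ) : e (4 * k) + 3 ≤ e (4 * (k + 1)) := by
  have h1 : e (4 * (k + 1)) = e (4 * k + 3) + (4 * (k + 1)).factorization 2 := by
    rw [show 4 * (k + 1) = 4 * k + 3 + 1 by ring, e_succ]
  have h2 := v_four (k := 4 * (k + 1)) (by omega) (by omega)
  rw [h1, e43]
  omega

lemma B_form (k r : ℕ) (hr : r < 4) : B (4 * k + r) = 2 ^ e (4 * k) * c r := by
  interval_cases r
  · simp [B, c, Nat.mul_add_mod]
  · have : (4 * k + 1) % 4 ≠ 3 := by omega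
    simp only [B, this, if_false, e41, c]
    norm_num
  · have : (4 * k + 2) % 4 ≠ 3 := by omega
    simp only [B, this, if_false, e42, c]
    norm_num [pow_succ]
  · have : (4 * k + 3) % 4 = 3 := by omega
    simp only [B, this, if_true, c]
    norm_num [mul_comm]

lemma two_pow_e_le (n : ℕ) : 2 ^ e n ≤ B n := by
  obtain ⟨k, r, hr, rfl⟩ : ∃ k r, r < 4 ∧ n = 4 * k + r := ⟨n / 4, n % 4, by omega, by omega⟩
  rw [B_form k r hr]
  interval_cases r
  · simp [c]
  · simp [c, e41]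
  · simp [c, e42, pow_succ]
  · simp only [c, e43, pow_succ]
    norm_num

lemma B_pos (n : ℕ) : 0 < B n := lt_of_lt_of_le (by positivity) (two_pow_e_le n)

lemma c_pos (r : ℕ) : 1 ≤ c r := by
  unfold c; split_ifs <;> norm_num

lemma B_mul_le (a b : ℕ) : B a * B b ≤ B (a + b) := by
  obtain ⟨k, r, hr, rfl⟩ : ∃ k r, r < 4 ∧ a = 4 * k + r := ⟨a / 4, a % 4, by omega, by omega⟩
  obtain ⟨l, s, hs, rfl⟩ : ∃ k r, r < 4 ∧ b = 4 * k + r := ⟨b / 4, b % 4, by omega, by omega⟩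
  rw [B_form k r hr, B_form l s hs]
  have hf : 2 ^ e (4 * k) * 2 ^ e (4 * l) ≤ 2 ^ e (4 * (k + l)) := by
    rw [← pow_add, mul_add]
    exact Nat.pow_le_pow_right (by norm_num) (e_add _ _)
  have hf8 : 8 * 2 ^ e (4 * (k + l)) ≤ 2 ^ e (4 * (k + l + 1)) := by
    have := e44 (k + l)
    calc 8 * 2 ^ e (4 * (k + l)) = 2 ^ (e (4 * (k + l)) + 3) := by rw [pow_add]; ring
      _ ≤ _ := Nat.pow_le_pow_right (by norm_num) this
  by_cases hrs : r + s < 4
  · have e1 : 4 * k + r + (4 * l + s) = 4 * (k + l) + (r + s) := by ring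
    rw [e1, B_form _ _ hrs]
    have hcc : c r * c s ≤ c (r + s) := by
      interval_cases r <;> interval_cases s <;> simp_all [c]
    calc 2 ^ e (4 * k) * c r * (2 ^ e (4 * l) * c s) = (2 ^ e (4 * k) * 2 ^ e (4 * l)) * (c r * c s) := by ring
      _ ≤ _ := Nat.mul_le_mul hf hcc
  · have e1 : 4 * k + r + (4 * l + s) = 4 * (k + l + 1) + (r + s - 4) := by omega
    have hrs' : r + s - 4 < 4 := by omega
    rw [e1, B_form _ _ hrs']
    have hcc : c r * c s ≤ 8 * c (r + s - 4) := by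
      interval_cases r <;> interval_cases s <;> simp_all [c]
    calc 2 ^ e (4 * k) * c r * (2 ^ e (4 * l) * c s) = (2 ^ e (4 * k) * 2 ^ e (4 * l)) * (c r * c s) := by ring
      _ ≤ 2 ^ e (4 * (k + l)) * (8 * c (r + s - 4)) := Nat.mul_le_mul hf hcc
      _ = (8 * 2 ^ e (4 * (k + l))) * c (r + s - 4) := by ring
      _ ≤ _ := Nat.mul_le_mul_right _ hf8

lemma B_mono : Monotone B := by
  apply monotone_nat_of_le_succ
  intro n
  obtain ⟨k, r, hr, rfl⟩ : ∃ k r, r < 4 ∧ n = 4 * k + r := ⟨n / 4, n % 4, by omega, by omega⟩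
  have hf8 : 8 * 2 ^ e (4 * k) ≤ 2 ^ e (4 * (k + 1)) := by
    calc 8 * 2 ^ e (4 * k) = 2 ^ (e (4 * k) + 3) := by rw [pow_add]; ring
      _ ≤ _ := Nat.pow_le_pow_right (by norm_num) (e44 k)
  by_cases h3 : r = 3
  · subst h3
    have e1 : 4 * k + 3 + 1 = 4 * (k + 1) + 0 := by ring
    rw [B_form k 3 hr, e1, B_form _ 0 (by norm_num)]
    have h2 : c 3 = 3 := rfl
    have h0 : c 0 = 1 := rfl
    rw [h2, h0]
    have : 0 < 2 ^ e (4 * k) := by positivity
    omega
  · have e1 : 4 * k + r + 1 = 4 * k + (r + 1) := by ring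
    rw [B_form k r hr, e1, B_form k (r + 1) (by omega)]
    apply Nat.mul_le_mul_left
    interval_cases r <;> simp_all [c]

lemma B_sup {a b m : ℕ} (h : a + b ≤ m) : B a * B b ≤ B m :=
  (B_mul_le a b).trans (B_mono h)

/-- `e m = m - s₂(m)` -/
lemma e_eq (m : ℕ) : e m = m - (Nat.digits 2 m).sum := by
  haveI : Fact (Nat.Prime 2) := ⟨Nat.prime_two⟩
  have h := sub_one_mul_padicValNat_factorial (p := 2) m
  simpa [e, Nat.factorization_def _ Nat.prime_two] using h

lemma digits_sum_le (m : ℕ) : (Nat.digits 2 m).sum ≤ (Nat.digits 2 m).length := by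
  have : ∀ x ∈ Nat.digits 2 m, x ≤ 1 := fun x hx => by
    have := Nat.digits_lt_base (by norm_num : 1 < 2) hx
    omega
  simpa using List.sum_le_card_nsmul _ 1 this

lemma e_ge {m : ℕ} (hm : m ≠ 0) : m ≤ e m + Nat.log 2 m + 1 := by
  rw [e_eq]
  have h1 := digits_sum_le m
  have h2 : (Nat.digits 2 m).length = Nat.log 2 m + 1 := Nat.digits_len 2 m (by norm_num) hm
  have h3 : (Nat.digits 2 m).sum ≤ m := Nat.digit_sum_le 2 m
  omega

lemma sq_le_three_pow {p : ℕ} (hp : 3 ≤ p) : p ^ 2 ≤ 3 ^ (p - 1) := by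
  induction p, hp using Nat.le_induction with
  | base => norm_num
  | succ p hp ih =>
    have h1 : p + 1 - 1 = p - 1 + 1 := by omega
    rw [h1]
    have h2 : (p + 1) ^ 2 ≤ p ^ 2 * 3 := by nlinarith
    calc (p + 1) ^ 2 ≤ p ^ 2 * 3 := h2
      _ ≤ 3 ^ (p - 1) * 3 := Nat.mul_le_mul_right _ ih
      _ = 3 ^ (p - 1 + 1) := (pow_succ _ _).symm

lemma big {m : ℕ} (hm : 32 ≤ m) : m ^ 2 * 3 ^ (m - 1) ≤ 4 ^ (m - 1) := by
  induction m, hm using Nat.le_induction with
  | base => norm_num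
  | succ m hm ih =>
    have h1 : m + 1 - 1 = m - 1 + 1 := by omega
    rw [h1, pow_succ, pow_succ]
    have h2 : (m + 1) ^ 2 * 3 ≤ m ^ 2 * 4 := by nlinarith
    calc (m + 1) ^ 2 * (3 ^ (m - 1) * 3) = ((m + 1) ^ 2 * 3) * 3 ^ (m - 1) := by ring
      _ ≤ (m ^ 2 * 4) * 3 ^ (m - 1) := Nat.mul_le_mul_right _ h2
      _ = (m ^ 2 * 3 ^ (m - 1)) * 4 := by ring
      _ ≤ 4 ^ (m - 1) * 4 := Nat.mul_le_mul_right _ ih

lemma three_pow_le_of_big {m : ℕ} (hm : 32 ≤ m) : 3 ^ (m - 1) ≤ 4 ^ e m := by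
  have h1 := e_ge (show m ≠ 0 by omega)
  set L := Nat.log 2 m with hL
  have h2 : 2 ^ L ≤ m := Nat.pow_log_le_self 2 (by omega)
  have h3 : 4 ^ L ≤ m ^ 2 := by
    calc 4 ^ L = (2 ^ L) ^ 2 := by
          rw [← pow_mul, mul_comm, pow_mul]; norm_num
      _ ≤ m ^ 2 := Nat.pow_le_pow_left h2 2
  have h4 : 4 ^ L * 3 ^ (m - 1) ≤ 4 ^ (m - 1) := (Nat.mul_le_mul_right _ h3).trans (big hm)
  have h5 : m - 1 ≤ L + e m := by omega
  have h6 : 4 ^ (m - 1) ≤ 4 ^ L * 4 ^ e m := by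
    rw [← pow_add]
    exact Nat.pow_le_pow_right (by norm_num) h5
  exact Nat.le_of_mul_le_mul_left (h4.trans h6) (by positivity)

/-- The key estimate for an odd prime power. -/
theorem pp_bound {p a : ℕ} (hp : p.Prime) (hodd : p ≠ 2) (ha : a ≠ 0) :
    p ^ ((p ^ a) !).factorization p ≤ B (p ^ a) := by
  haveI : Fact p.Prime := ⟨hp⟩
  set m := p ^ a with hm
  set v := (m !).factorization p with hv
  have hp3 : 3 ≤ p := by
    have := hp.two_le
    omega
  have hmv : (p - 1) * v = m - 1 := by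
    have h := sub_one_mul_padicValNat_factorial (p := p) m
    have h2 : (Nat.digits p m).sum = 1 := by
      have e1 : m = p ^ a * 1 := by rw [hm, mul_one]
      rw [e1, Nat.digits_base_pow_mul hp.one_lt (by norm_num)]
      simp [Nat.digits_of_lt p 1 (by norm_num) hp.one_lt]
    rw [h2, ← Nat.factorization_def _ hp] at h
    exact h
  have hm3 : 3 ≤ m := by
    calc 3 ≤ p := hp3
      _ = p ^ 1 := (pow_one p).symm
      _ ≤ p ^ a := Nat.pow_le_pow_right hp.pos (Nat.one_le_iff_ne_zero.2 ha)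
  have h2v : (p ^ v) ^ 2 ≤ 3 ^ (m - 1) := by
    calc (p ^ v) ^ 2 = (p ^ 2) ^ v := by rw [← pow_mul, ← pow_mul, mul_comm]
      _ ≤ (3 ^ (p - 1)) ^ v := Nat.pow_le_pow_left (sq_le_three_pow hp3) v
      _ = 3 ^ (m - 1) := by rw [← pow_mul, hmv]
  by_cases hbig : 32 ≤ m
  · have h1 := three_pow_le_of_big hbig
    have h3 : (p ^ v) ^ 2 ≤ (2 ^ e m) ^ 2 := by
      calc (p ^ v) ^ 2 ≤ 4 ^ e m := h2v.trans h1
        _ = (2 ^ e m) ^ 2 := by rw [← pow_mul, mul_comm, pow_mul]; norm_num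
    exact ((Nat.pow_le_pow_iff_left (by norm_num)).1 h3).trans (two_pow_e_le m)
  · have hmodd : m % 2 = 1 := by
      have : Odd m := (hp.odd_of_ne_two hodd).pow
      exact Nat.odd_iff.1 this
    have hm5 : m = 5 ∨ m = 7 → p ^ v = m := by
      intro h57
      have hpm : p ∣ m := dvd_pow_self p ha
      have hpe : p = m := by
        rcases h57 with h | h
        · rw [h] at hpm ⊢
          exact (Nat.prime_dvd_prime_iff_eq hp (by norm_num)).1 hpm
        · rw [h] at hpm ⊢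
          exact (Nat.prime_dvd_prime_iff_eq hp (by norm_num)).1 hpm
      have hv1 : v = 1 := by
        rw [← hpe] at hmv
        have : p - 1 ≠ 0 := by omega
        have h1 : (p - 1) * v = (p - 1) * 1 := by rw [hmv, mul_one]
        exact Nat.eq_of_mul_eq_mul_left (by omega) h1
      rw [hv1, pow_one, hpe]
    have hcheck : ∀ n, 3 ≤ n → n < 32 → n % 2 = 1 → n ≠ 5 → n ≠ 7 → 3 ^ (n - 1) ≤ (B n) ^ 2 := by
      intro n h1 h2 h3 h5 h7
      interval_cases n <;> first | omega | (simp [B, e_eq]; done) | (norm_num [B, e_eq]; done)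
    by_cases h57 : m = 5 ∨ m = 7
    · rw [hm5 h57]
      rcases h57 with h | h <;> rw [h] <;> norm_num [B, e_eq]
    · push Not at h57
      have h3 := hcheck m hm3 (by omega) hmodd h57.1 h57.2
      exact (Nat.pow_le_pow_iff_left (by norm_num)).1 (h2v.trans h3)

end Cfsg.Agent.Lib.NilpSym
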