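import Mathlib
import Cfsg.Agent.Lib.NilpSym.Arith
import Cfsg.Agent.Lib.Transfer.Frobenius

namespace Cfsg.Agent.Lib.NilpSym

open MulAction

section
variable {G X : Type} [Group G] [MulAction G X]

lemma fix_of_eq_smul [Finite G] {P K : Subgroup G} (hcomm : ∀ a ∈ P, ∀ b ∈ K, a * b = b * a)
    (hcop : Nat.Coprime (Nat.card K) (Nat.card P)) {x₀ : X} {p q : G} (hp : p ∈ P) (hq : q ∈ K)
    (h : p • x₀ = q • x₀) : p • x₀ = x₀ := by
  set n := Nat.card K with hn
  have hfix : (q⁻¹ * p) • x₀ = x₀ := by rw [mul_smul, h, inv_smul_smul]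
  have hq1 : q ^ n = 1 := by
    have h0 : ((⟨q, hq⟩ : K) ^ n : K) = 1 := pow_card_eq_one'
    have := congrArg Subtype.val h0
    simpa only [Subgroup.coe_pow, Subgroup.coe_one] using this
  have hcommute : Commute q⁻¹ p := by
    have : Commute q p := (hcomm p hp q hq).symm
    exact this.inv_left
  have hpow : (q⁻¹ * p) ^ n = p ^ n := by
    rw [hcommute.mul_pow, inv_pow, hq1]; simp
  have hfix1 : p ^ n • x₀ = x₀ := by
    rw [← hpow]
    have : ∀ k : ℕ, (q⁻¹ * p) ^ k • x₀ = x₀ := by
      intro k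
      induction k with
      | zero => simp
      | succ k ih => rw [pow_succ, mul_smul, hfix, ih]
    exact this n
  have hfix2 : ∀ k : ℕ, (p ^ n) ^ k • x₀ = x₀ := by
    intro k
    induction k with
    | zero => simp
    | succ k ih => rw [pow_succ, mul_smul, hfix1, ih]
  have hord : Nat.Coprime n (orderOf p) := by
    apply Nat.Coprime.coprime_dvd_right _ hcop
    have : orderOf (⟨p, hp⟩ : P) = orderOf p := by
      simp [Subgroup.orderOf_mk]
    rw [← this]
    exact orderOf_dvd_natCard _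
  obtain ⟨k, hk⟩ := exists_pow_eq_self_of_coprime hord
  calc p • x₀ = (p ^ n) ^ k • x₀ := by rw [hk]
    _ = x₀ := hfix2 k

/-- Faithfulness on the orbit. -/
lemma faithful_on_orbit [FaithfulSMul G X] [IsPretransitive G X] {A C : Subgroup G} (x₀ : X)
    (hcomm : ∀ a ∈ A, ∀ b ∈ C, a * b = b * a)
    (hgen : ∀ g : G, ∃ a ∈ A, ∃ b ∈ C, g = a * b) :
    FaithfulSMul A (orbit A x₀) := by
  constructor
  intro y₁ y₂ h
  apply Subtype.ext
  apply FaithfulSMul.eq_of_smul_eq_smul (α := X)
  intro z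
  obtain ⟨g, rfl⟩ := exists_smul_eq G x₀ z
  obtain ⟨a, ha, b, hb, rfl⟩ := hgen g
  have key : ∀ y : A, (y : G) • ((a * b) • x₀) = b • ((y : G) • a • x₀) := by
    intro y
    have hc : (y : G) * a * b = b * ((y : G) * a) :=
      hcomm _ (A.mul_mem y.2 ha) _ hb
    rw [← mul_smul, ← mul_assoc, hc, mul_smul, mul_smul]
  have h2 := h ⟨a • x₀, ⟨⟨a, ha⟩, rfl⟩⟩
  have h3 : (y₁ : G) • a • x₀ = (y₂ : G) • a • x₀ := congrArg Subtype.val h2
  rw [key y₁, key y₂, h3]

end

/-- The induction hypothesis. -/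
def IHyp (m : ℕ) : Prop :=
  ∀ n < m, ∀ (Y : Type) [Finite Y] (H : Type) [Group H] [Finite H] [MulAction H Y]
    [FaithfulSMul H Y], Nat.card Y = n → Group.IsNilpotent H → Nat.card H ≤ B n

section
variable {G X : Type} [Group G] [MulAction G X] [Finite G] [Finite X] [FaithfulSMul G X]

theorem bound_coprime {m : ℕ} (IH : IHyp m) [IsPretransitive G X] (hm : Nat.card X = m)
    (hnil : Group.IsNilpotent G) (P K : Subgroup G) (hcomm : ∀ a ∈ P, ∀ b ∈ K, a * b = b * a)
    (hcop : Nat.Coprime (Nat.card K) (Nat.card P))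
    (hgen : ∀ g : G, ∃ a ∈ P, ∃ b ∈ K, g = a * b) (hP : P ≠ ⊥) (hK : K ≠ ⊥)
    (hcard : Nat.card G = Nat.card K * Nat.card P) (x₀ : X) :
    Nat.card G ≤ B m := by
  have hcomm' : ∀ a ∈ K, ∀ b ∈ P, a * b = b * a := fun a ha b hb => (hcomm b hb a ha).symm
  have hgen' : ∀ g : G, ∃ a ∈ K, ∃ b ∈ P, g = a * b := by
    intro g
    obtain ⟨a, ha, b, hb, rfl⟩ := hgen g
    exact ⟨b, hb, a, ha, hcomm a ha b hb⟩
  have hcop' : Nat.Coprime (Nat.card P) (Nat.card K) := hcop.symm
  haveI hfP : FaithfulSMul P (orbit P x₀) := faithful_on_orbit x₀ hcomm hgen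
  haveI hfK : FaithfulSMul K (orbit K x₀) := faithful_on_orbit x₀ hcomm' hgen'
  -- moved points
  have hmove : ∀ (A : Subgroup G) [FaithfulSMul A (orbit A x₀)], A ≠ ⊥ → ∃ a ∈ A, a • x₀ ≠ x₀ := by
    intro A _ hA
    by_contra hcon
    push Not at hcon
    apply hA
    rw [eq_bot_iff]
    intro y hy
    have : (⟨y, hy⟩ : A) = 1 := by
      apply FaithfulSMul.eq_of_smul_eq_smul (α := orbit A x₀)
      rintro ⟨z, a, rfl⟩
      apply Subtype.ext
      change y • ((a : G) • x₀) = (1 : A) • ((a : G) • x₀)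
      rw [hcon a a.2, hcon y hy]
      simp [hcon a a.2]
    simpa using congrArg Subtype.val this
  obtain ⟨p₁, hp₁, hp₁x⟩ := hmove P hP
  obtain ⟨q₁, hq₁, hq₁x⟩ := hmove K hK
  set O₀ : Set X := orbit P x₀ with hO₀
  set O₁ : Set X := orbit K x₀ with hO₁
  have hinter : ∀ z, z ∈ O₀ → z ∈ O₁ → z = x₀ := by
    rintro z ⟨⟨p, hp⟩, rfl⟩ ⟨⟨q, hq⟩, hq2⟩
    exact fix_of_eq_smul hcomm hcop hp hq hq2.symm
  set y := p₁ • q₁ • x₀ with hy
  have hy0 : y ∉ O₀ := by
    rintro ⟨⟨p, hp⟩, hp2⟩
    have h1 : p₁⁻¹ * p ∈ P := P.mul_mem (P.inv_mem hp₁) hp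
    have h2 : (p₁⁻¹ * p) • x₀ = q₁ • x₀ := by
      rw [mul_smul]
      change p₁⁻¹ • (p • x₀) = _
      have : p • x₀ = y := hp2
      rw [this, hy, inv_smul_smul]
    have h3 := fix_of_eq_smul hcomm hcop h1 hq₁ h2
    exact hq₁x (h2.symm.trans h3)
  have hy1 : y ∉ O₁ := by
    rintro ⟨⟨q, hq⟩, hq2⟩
    have h1 : q₁⁻¹ * q ∈ K := K.mul_mem (K.inv_mem hq₁) hq
    have h2 : (q₁⁻¹ * q) • x₀ = p₁ • x₀ := by
      rw [mul_smul]
      change q₁⁻¹ • (q • x₀) = _
      have : q • x₀ = y := hq2
      rw [this, hy, ← mul_smul, ← mul_smul, mul_assoc, hcomm p₁ hp₁ q₁ hq₁, inv_mul_cancel_left]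
    have h3 := fix_of_eq_smul hcomm' hcop' h1 hp₁ h2
    exact hp₁x (h2.symm.trans h3)
  have hx₀0 : x₀ ∈ O₀ := mem_orbit_self x₀
  have hx₀1 : x₀ ∈ O₁ := mem_orbit_self x₀
  have hsum : O₀.ncard + O₁.ncard ≤ m := by
    have hdisj : Disjoint O₀ (insert y (O₁ \ {x₀})) := by
      rw [Set.disjoint_left]
      intro z hz0 hz
      rcases hz with rfl | ⟨hz1, hzne⟩
      · exact hy0 hz0
      · exact hzne (hinter z hz0 hz1)
    have h1 : (O₀ ∪ insert y (O₁ \ {x₀})).ncard = O₀.ncard + (insert y (O₁ \ {x₀})).ncard :=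
      Set.ncard_union_eq hdisj (Set.toFinite _) (Set.toFinite _)
    have h2 : (insert y (O₁ \ {x₀})).ncard = (O₁ \ {x₀}).ncard + 1 :=
      Set.ncard_insert_of_notMem (fun h => hy1 h.1) (Set.toFinite _)
    have h3 : (O₁ \ {x₀}).ncard = O₁.ncard - 1 := Set.ncard_sdiff_singleton_of_mem hx₀1
    have h4 : 0 < O₁.ncard := (Set.ncard_pos (Set.toFinite _)).2 ⟨x₀, hx₀1⟩
    have h5 : (O₀ ∪ insert y (O₁ \ {x₀})).ncard ≤ Nat.card X := by
      rw [← Set.ncard_univ]
      exact Set.ncard_le_ncard (Set.subset_univ _) (Set.toFinite _)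
    omega
  have ha0 : 0 < O₀.ncard := (Set.ncard_pos (Set.toFinite _)).2 ⟨x₀, hx₀0⟩
  have ha1 : 0 < O₁.ncard := (Set.ncard_pos (Set.toFinite _)).2 ⟨x₀, hx₀1⟩
  have hnilP : Group.IsNilpotent P := inferInstance
  have hnilK : Group.IsNilpotent K := inferInstance
  have hbP : Nat.card P ≤ B O₀.ncard :=
    IH O₀.ncard (by omega) (orbit P x₀) P (Nat.card_coe_set_eq _) hnilP
  have hbK : Nat.card K ≤ B O₁.ncard :=
    IH O₁.ncard (by omega) (orbit K x₀) K (Nat.card_coe_set_eq _) hnilK
  rw [hcard, mul_comm]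
  exact (Nat.mul_le_mul hbP hbK).trans (B_sup hsum)

/-- Splitting along two invariant subsets. -/
theorem bound_split {m : ℕ} (IH : IHyp m) (S₁ S₂ : SubMulAction G X)
    (hsum : Nat.card S₁ + Nat.card S₂ ≤ m) (h₁ : 0 < Nat.card S₁) (h₂ : 0 < Nat.card S₂)
    (hcover : ∀ z, z ∈ S₁ ∨ z ∈ S₂) (hnil : Group.IsNilpotent G) :
    Nat.card G ≤ B m := by
  let f₁ := toPermHom G S₁
  let f₂ := toPermHom G S₂
  have hinj : Function.Injective (fun g : G => (f₁.rangeRestrict g, f₂.rangeRestrict g)) := by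
    intro a b h
    simp only [Prod.mk.injEq] at h
    apply FaithfulSMul.eq_of_smul_eq_smul (α := X)
    intro z
    rcases hcover z with hz | hz
    · have := congrArg Subtype.val h.1
      have h2 := congrFun (congrArg DFunLike.coe this) ⟨z, hz⟩
      exact congrArg Subtype.val h2
    · have := congrArg Subtype.val h.2
      have h2 := congrFun (congrArg DFunLike.coe this) ⟨z, hz⟩
      exact congrArg Subtype.val h2
  have hc := Nat.card_le_card_of_injective _ hinj
  rw [Nat.card_prod] at hc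
  have hn₁ : Group.IsNilpotent f₁.range :=
    Group.nilpotent_of_surjective f₁.rangeRestrict f₁.rangeRestrict_surjective
  have hn₂ : Group.IsNilpotent f₂.range :=
    Group.nilpotent_of_surjective f₂.rangeRestrict f₂.rangeRestrict_surjective
  have b₁ : Nat.card f₁.range ≤ B (Nat.card S₁) :=
    IH _ (by omega) S₁ f₁.range rfl hn₁
  have b₂ : Nat.card f₂.range ≤ B (Nat.card S₂) :=
    IH _ (by omega) S₂ f₂.range rfl hn₂
  exact hc.trans ((Nat.mul_le_mul b₁ b₂).trans (B_sup hsum))

lemma card_dvd_factorial (X G : Type) [Finite X] [Group G] [Finite G] [MulAction G X]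
    [FaithfulSMul G X] : Nat.card G ∣ (Nat.card X).factorial := by
  have hinj : Function.Injective (toPermHom G X) := by
    intro a b h
    apply FaithfulSMul.eq_of_smul_eq_smul (α := X)
    intro z
    exact congrFun (congrArg DFunLike.coe h) z
  rw [← Nat.card_perm]
  exact Subgroup.card_dvd_of_injective _ hinj

end

/-- **The bound.** -/
theorem bound : ∀ (m : ℕ) (X : Type) [Finite X] (G : Type) [Group G] [Finite G] [MulAction G X]
    [FaithfulSMul G X], Nat.card X = m → Group.IsNilpotent G → Nat.card G ≤ B m := by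
  intro m
  induction m using Nat.strong_induction_on with
  | _ m IH =>
  intro X _ G _ _ _ _ hm hnil
  have hdvd : Nat.card G ∣ m.factorial := hm ▸ card_dvd_factorial X G
  by_cases htriv : Nat.card G = 1
  · rw [htriv]; exact B_pos m
  by_cases htrans : IsPretransitive G X
  · have hm0 : m ≠ 0 := by
      rintro rfl
      simp at hdvd
      exact htriv hdvd
    have hne : Nonempty X := by
      by_contra h
      rw [not_nonempty_iff] at h
      apply hm0
      rw [← hm]
      exact Nat.card_of_isEmpty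
    obtain ⟨x₀⟩ := hne
    obtain ⟨p, hp, hpd⟩ := Nat.exists_prime_and_dvd htriv
    haveI : Fact p.Prime := ⟨hp⟩
    obtain ⟨P, K, hKn, hc⟩ := Cfsg.Agent.Lib.Transfer.hasNormalPComplement_of_isNilpotent (p := p) hnil
    have hcard : Nat.card K * Nat.card P = Nat.card G := hc.card_mul
    have hPcop : Nat.Coprime (Nat.card K) (Nat.card P) := by
      have h1 : Nat.card K = (P : Subgroup G).index := hc.index_eq_card.symm
      rw [h1]
      exact (P.card_coprime_index).symm
    by_cases hK : K = ⊥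
    · -- p-group
      have hcP : Nat.card G = Nat.card P := by
        rw [← hcard, hK]; simp
      have hG : IsPGroup p G := by
        intro g
        have : ∃ k, Nat.card P = p ^ k := IsPGroup.iff_card.1 P.isPGroup'
        obtain ⟨k, hk⟩ := this
        refine ⟨k, ?_⟩
        rw [← hk, ← hcP]
        exact pow_card_eq_one'
      obtain ⟨k, hk⟩ := IsPGroup.iff_card.1 hG
      have hle : k ≤ (m.factorial).factorization p := by
        apply (hp.pow_dvd_iff_le_factorization (Nat.factorial_ne_zero m)).1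
        rw [← hk]; exact hdvd
      by_cases hp2 : p = 2
      · subst hp2
        rw [hk]
        exact (Nat.pow_le_pow_right (by norm_num) hle).trans (two_pow_e_le m)
      · have hmd : m ∣ p ^ k := by
          rw [← hm, ← hk, ← index_stabilizer_of_transitive G x₀]
          exact Subgroup.index_dvd_card _
        obtain ⟨a, -, ha⟩ := (Nat.dvd_prime_pow hp).1 hmd
        have ha0 : a ≠ 0 := by
          rintro rfl
          simp at ha
          subst ha
          simp at hdvd
          exact htriv hdvd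
        rw [hk]
        calc p ^ k ≤ p ^ (m.factorial).factorization p := Nat.pow_le_pow_right hp.pos hle
          _ ≤ B m := by rw [ha]; exact pp_bound hp hp2 ha0
    · -- coprime
      have hPne : (P : Subgroup G) ≠ ⊥ := by
        intro h
        have : Nat.card P = 1 := by rw [h]; simp
        rw [P.card_eq_multiplicity] at this
        have h0 : (Nat.card G).factorization p = 0 := by
          by_contra h0
          rcases Nat.pow_eq_one.1 this with h1 | h1
          · exact hp.one_lt.ne' h1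
          · exact h0 h1
        have hne0 : Nat.card G ≠ 0 := Nat.card_pos.ne'
        have := (hp.dvd_iff_one_le_factorization hne0).1 hpd
        omega
      haveI : (P : Subgroup G).Normal := by
        haveI := hnil
        infer_instance
      have hcomm : ∀ a ∈ (P : Subgroup G), ∀ b ∈ K, a * b = b * a := by
        intro a ha b hb
        have hd : Disjoint (P : Subgroup G) K := by
          have := hc.disjoint
          exact this.symm
        exact Subgroup.commute_of_normal_of_disjoint _ _ ‹_› hKn hd a b ha hb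
      have hgen : ∀ g : G, ∃ a ∈ (P : Subgroup G), ∃ b ∈ K, g = a * b := by
        intro g
        obtain ⟨⟨a, b⟩, hab⟩ := hc.symm.2 g
        exact ⟨a, a.2, b, b.2, hab.symm⟩
      exact bound_coprime (IH := IH) hm hnil P K hcomm hPcop hgen hPne hK hcard.symm x₀
  · -- intransitive
    obtain ⟨x, y, hxy⟩ : ∃ x y : X, ∀ g : G, g • x ≠ y := by
      by_contra h
      push Not at h
      exact htrans ⟨h⟩
    let S₁ : SubMulAction G X :=
      { carrier := orbit G x
        smul_mem' := by
          rintro g z ⟨h, rfl⟩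
          exact ⟨g * h, mul_smul _ _ _⟩ }
    let S₂ : SubMulAction G X :=
      { carrier := (orbit G x)ᶜ
        smul_mem' := by
          rintro g z hz ⟨h, hh⟩
          apply hz
          exact ⟨g⁻¹ * h, by
            change (g⁻¹ * h) • x = z
            have : h • x = g • z := hh
            rw [mul_smul, this, inv_smul_smul]⟩ }
    have e₁ : Nat.card S₁ = (orbit G x).ncard := Nat.card_coe_set_eq _
    have e₂ : Nat.card S₂ = ((orbit G x)ᶜ).ncard := Nat.card_coe_set_eq _
    have hsum : (orbit G x).ncard + ((orbit G x)ᶜ).ncard = Nat.card X :=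
      Set.ncard_add_ncard_compl _
    have hpos₁ : 0 < (orbit G x).ncard :=
      (Set.ncard_pos (Set.toFinite _)).2 ⟨x, mem_orbit_self x⟩
    have hpos₂ : 0 < ((orbit G x)ᶜ).ncard :=
      (Set.ncard_pos (Set.toFinite _)).2 ⟨y, by
        rintro ⟨g, hg⟩
        exact hxy g hg⟩
    refine bound_split (IH := IH) S₁ S₂ (by omega) (by omega) (by omega) ?_ hnil
    intro z
    by_cases hz : z ∈ orbit G x
    · exact Or.inl hz
    · exact Or.inr hz

end Cfsg.Agent.Lib.NilpSym
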