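import Mathlib
import Cfsg.Agent.Lib.NilpSym.Bound

set_option autoImplicit false

namespace Cfsg.Agent.Lib.NilpSym

open Equiv Equiv.Perm

/-- The 3-cycle representation of `ZMod 3`. -/
def psi3 : Multiplicative (ZMod 3) →* Perm (Fin 3) where
  toFun z := (finRotate 3) ^ (Multiplicative.toAdd z).val
  map_one' := by decide
  map_mul' := by decide

lemma psi3_inj : Function.Injective psi3 := by decide

lemma psi3_sign (z : Multiplicative (ZMod 3)) : sign (psi3 z) = 1 := by
  revert z; decide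

/-- Existence of the extremal subgroup. -/
theorem exists_extremal (n : ℕ) (hn3 : 3 ≤ n) (P : Subgroup (Perm (Fin (n - 3)))) (hP : Group.IsNilpotent P) :
    ∃ M : Subgroup (Perm (Fin n)), Group.IsNilpotent M ∧ Nat.card M = 3 * Nat.card P ∧
      Nonempty (M ≃* (↥P × Multiplicative (ZMod 3))) := by
  let ε : Fin (n - 3) ⊕ Fin 3 ≃ Fin n := finSumFinEquiv.trans (finCongr (by omega))
  let Φ : (↥P × Multiplicative (ZMod 3)) →* Perm (Fin n) :=
    (ε.permCongrHom).toMonoidHom.comp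
      ((Equiv.Perm.sumCongrHom (Fin (n - 3)) (Fin 3)).comp (MonoidHom.prodMap P.subtype psi3))
  have hΦ : Function.Injective Φ := by
    intro a b h
    have h1 := ε.permCongrHom.injective h
    have h2 := Equiv.Perm.sumCongrHom_injective h1
    have h3 := congrArg Prod.fst h2
    have h4 := congrArg Prod.snd h2
    exact Prod.ext (Subtype.ext h3) (psi3_inj h4)
  refine ⟨Φ.range, ?_, ?_, ⟨(MonoidHom.ofInjective hΦ).symm⟩⟩
  · have : Group.IsNilpotent (↥P × Multiplicative (ZMod 3)) := inferInstance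
    exact Group.nilpotent_of_surjective Φ.rangeRestrict Φ.rangeRestrict_surjective
  · rw [← Nat.card_congr (MonoidHom.ofInjective hΦ).toEquiv, Nat.card_prod]
    have : Nat.card (Multiplicative (ZMod 3)) = 3 := by
      simp [Nat.card_eq_fintype_card, ZMod.card]
    rw [this, mul_comm]

variable {X : Type} [Fintype X] [DecidableEq X]

lemma conj_of_sylow_in {G : Type} [Group G] [Finite G] {p : ℕ} [Fact p.Prime] (S Q₁ Q₂ : Subgroup G)
    (h₁ : Q₁ ≤ S) (h₂ : Q₂ ≤ S) (c₁ : Nat.card Q₁ = p ^ (Nat.card S).factorization p)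
    (c₂ : Nat.card Q₂ = p ^ (Nat.card S).factorization p) :
    ∃ h ∈ S, Q₂ = Q₁.map (MulAut.conj h).toMonoidHom := by
  have e₁ : Nat.card (Q₁.subgroupOf S) = Nat.card Q₁ :=
    Nat.card_congr (Subgroup.subgroupOfEquivOfLe h₁).toEquiv
  have e₂ : Nat.card (Q₂.subgroupOf S) = Nat.card Q₂ :=
    Nat.card_congr (Subgroup.subgroupOfEquivOfLe h₂).toEquiv
  let s₁ : Sylow p S := Sylow.ofCard (Q₁.subgroupOf S) (e₁.trans c₁)
  let s₂ : Sylow p S := Sylow.ofCard (Q₂.subgroupOf S) (e₂.trans c₂)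
  obtain ⟨h, hh⟩ := MulAction.exists_smul_eq S s₁ s₂
  refine ⟨h, h.2, ?_⟩
  symm
  apply Subgroup.eq_of_le_of_card_ge
  · rintro _ ⟨y, hy, rfl⟩
    have hy' : (⟨y, h₁ hy⟩ : S) ∈ (s₁ : Subgroup S) := hy
    have hmem : (MulAut.conj h) • (⟨y, h₁ hy⟩ : S) ∈ ((h • s₁ : Sylow p S) : Subgroup S) := by
      rw [Sylow.coe_subgroup_smul]
      exact Subgroup.smul_mem_pointwise_smul _ _ _ hy'
    rw [hh] at hmem
    exact hmem
  · rw [c₂, Subgroup.card_map_of_injective (f := (MulAut.conj (h : G)).toMonoidHom) (MulAut.conj (h : G)).injective, c₁]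

lemma e_mono {a b : ℕ} (h : a ≤ b) : e a ≤ e b := by
  obtain ⟨c, rfl⟩ := Nat.exists_eq_add_of_le h
  have := e_add a c
  omega

/-- Structure of the extremal nilpotent subgroups. -/
theorem extremal_structure (E : ℕ) (hE : 6 ≤ Fintype.card X → e (Fintype.card X - 4) < E)
    (N : Subgroup (Perm X)) (hN : Group.IsNilpotent N)
    (hcard : Nat.card N = 3 * 2 ^ E) :
    ∃ (c : Perm X) (Q : Subgroup (Perm X)), c.IsThreeCycle ∧ Nat.card Q = 2 ^ E ∧
      (∀ q ∈ Q, ∀ x ∈ c.support, q x = x) ∧ N = Q ⊔ Subgroup.zpowers c := by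
  haveI : Fact (Nat.Prime 3) := ⟨Nat.prime_three⟩
  obtain ⟨P, K, hKn, hc⟩ := Cfsg.Agent.Lib.Transfer.hasNormalPComplement_of_isNilpotent (p := 3) hN
  have hmul : Nat.card K * Nat.card P = 3 * 2 ^ E := by rw [hc.card_mul, hcard]
  have hcP : Nat.card P = 3 := by
    rw [P.card_eq_multiplicity, hcard, Nat.factorization_mul (by norm_num) (by positivity),
      Nat.factorization_pow]
    simp [Nat.Prime.factorization_self Nat.prime_three,
      Nat.factorization_eq_zero_of_not_dvd (show ¬ 3 ∣ 2 by norm_num)]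
  have hcK : Nat.card K = 2 ^ E := by
    rw [hcP, mul_comm] at hmul
    exact Nat.eq_of_mul_eq_mul_left (by norm_num) hmul
  haveI hPcyc : IsCyclic P := isCyclic_of_prime_card hcP
  obtain ⟨c', hc'⟩ := IsCyclic.exists_generator (α := P)
  let c : Perm X := ((c' : N) : Perm X)
  let Q : Subgroup (Perm X) := K.map N.subtype
  have hQcard : Nat.card Q = 2 ^ E := by
    rw [Subgroup.card_map_of_injective N.subtype_injective, hcK]
  have hordc : orderOf c = 3 := by
    have h1 : orderOf c' = 3 := by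
      rw [orderOf_eq_card_of_forall_mem_zpowers hc', hcP]
    have h2 : orderOf ((c' : N)) = 3 := by rw [Subgroup.orderOf_coe, h1]
    change orderOf ((c' : N) : Perm X) = 3
    rw [Subgroup.orderOf_coe, h2]
  have hcomm : ∀ k ∈ K, ∀ p ∈ (P : Subgroup N), k * p = p * k := by
    intro a ha b hb
    haveI : (P : Subgroup N).Normal := by
      haveI := hN
      infer_instance
    exact Subgroup.commute_of_normal_of_disjoint _ _ hKn ‹_› hc.disjoint a b ha hb
  have hQc : Q ≤ Subgroup.centralizer {c} := by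
    rintro _ ⟨k, hk, rfl⟩
    rw [Subgroup.mem_centralizer_singleton_iff]
    have := hcomm k hk c' c'.2
    have h2 := congrArg Subtype.val this
    exact h2
  have hdvd : Nat.card Q ∣ Nat.card (Subgroup.centralizer {c}) := Subgroup.card_dvd_of_le hQc
  obtain ⟨k, hk⟩ := cycleType_prime_order (σ := c) (by rw [hordc]; exact Nat.prime_three)
  rw [hordc] at hk
  rw [nat_card_centralizer, hQcard, hk] at hdvd
  have hsum : 3 * (k + 1) ≤ Fintype.card X := by
    have h1 := sum_cycleType c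
    rw [hk] at h1
    simp at h1
    have h2 := c.support.card_le_univ
    nlinarith
  have hk0 : k = 0 := by
    by_contra hk0
    have hk1 : 1 ≤ k := Nat.one_le_iff_ne_zero.2 hk0
    have h6 : 6 ≤ Fintype.card X := by nlinarith
    have hcount : (Multiset.replicate (k + 1) 3).toFinset = {3} := by
      rw [Multiset.toFinset_replicate]
      simp
    rw [hcount] at hdvd
    rw [Multiset.sum_replicate, Multiset.prod_replicate, Finset.prod_singleton,
      Multiset.count_replicate_self, smul_eq_mul] at hdvd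
    have hne : ((Fintype.card X - (k + 1) * 3).factorial * 3 ^ (k + 1) * (k + 1).factorial) ≠ 0 := by
      positivity
    have hle := (Nat.Prime.pow_dvd_iff_le_factorization Nat.prime_two hne).1 hdvd
    rw [Nat.factorization_mul (by positivity) (by positivity),
      Nat.factorization_mul (by positivity) (by positivity)] at hle
    simp only [Finsupp.add_apply, Nat.factorization_pow, Finsupp.smul_apply, smul_eq_mul] at hle
    have h3 : (3 : ℕ).factorization 2 = 0 := Nat.factorization_eq_zero_of_not_dvd (by norm_num)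
    rw [h3] at hle
    have h4 : e (Fintype.card X - (k + 1) * 3) + e (k + 1) ≤ e (Fintype.card X - 4) := by
      refine (e_add _ _).trans (e_mono ?_)
      omega
    have h5 := hE h6
    simp only [e] at h4 h5
    omega
  subst hk0
  have h3 : c.IsThreeCycle := by
    simpa [IsThreeCycle] using hk
  refine ⟨c, Q, h3, hQcard, ?_, ?_⟩
  · intro q hq x hx
    have hcq : c * q = q * c := (Subgroup.mem_centralizer_singleton_iff.1 (hQc hq)).symm
    have hx' : c x ≠ x := mem_support.1 hx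
    have hqx : c (q x) ≠ q x := by
      intro h
      apply hx'
      apply q.injective
      have h2 : (c * q) x = (q * c) x := by rw [hcq]
      rw [Perm.mul_apply, Perm.mul_apply] at h2
      rw [← h2, h]
    obtain ⟨i, hi⟩ := h3.isCycle.exists_pow_eq hx' hqx
    have hzc : Nat.card (Subgroup.zpowers c) = 3 := by rw [Nat.card_zpowers, hordc]
    have := fix_of_eq_smul (P := Q) (K := Subgroup.zpowers c) (x₀ := x) (p := q) (q := c ^ i)
      (by
        intro a ha b hb
        obtain ⟨j, rfl⟩ := Subgroup.mem_zpowers_iff.1 hb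
        have hca : Commute a c := Subgroup.mem_centralizer_singleton_iff.1 (hQc ha)
        exact hca.zpow_right j)
      (by
        rw [hzc, hQcard]
        exact Nat.Coprime.pow_right _ (by norm_num))
      hq (Subgroup.npow_mem_zpowers c i) hi.symm
    exact this
  · apply le_antisymm
    · intro x hx
      obtain ⟨⟨a, b⟩, hab⟩ := hc.2 (⟨x, hx⟩ : N)
      obtain ⟨j, hj⟩ := Subgroup.mem_zpowers_iff.1 (hc' b)
      have h1 : x = (a : N) * (b : N) := (congrArg Subtype.val hab).symm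
      have h2 : ((b : N) : Perm X) = c ^ j := by
        have := congrArg (fun z : P => ((z : N) : Perm X)) hj
        simpa [c] using this.symm
      rw [h1]
      exact Subgroup.mul_mem _ (Subgroup.mem_sup_left ⟨a, a.2, rfl⟩)
        (Subgroup.mem_sup_right (by
          rw [h2]
          exact Subgroup.zpow_mem_zpowers c j))
    · apply sup_le
      · exact Subgroup.map_subtype_le K
      · rw [Subgroup.zpowers_le]
        exact (c' : N).2

/-- The permutations supported off the support of `c`. -/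
def fixerOf (c : Perm X) : Subgroup (Perm X) :=
  (ofSubtype : Perm {x // x ∉ c.support} →* Perm X).range

lemma mem_fixerOf (c q : Perm X) (h : ∀ x ∈ c.support, q x = x) : q ∈ fixerOf c := by
  unfold fixerOf
  rw [mem_range_ofSubtype_iff]
  intro x hx hxc
  exact (mem_support.1 hx) (h x hxc)

lemma fixerOf_commute (c q : Perm X) (h : q ∈ fixerOf c) : q * c = c * q := by
  obtain ⟨r, rfl⟩ := h
  have hdisj : Disjoint (ofSubtype r) c := by
    intro x
    by_cases hx : x ∈ c.support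
    · left
      exact ofSubtype_apply_of_not_mem r (by simpa using hx)
    · right
      simpa using hx
  exact hdisj.commute

lemma card_fixerOf (c : Perm X) : Nat.card (fixerOf c) = (Fintype.card X - c.support.card).factorial := by
  unfold fixerOf
  rw [← Nat.card_congr (MonoidHom.ofInjective (ofSubtype_injective (p := fun x => x ∉ c.support))).toEquiv, Nat.card_perm]
  congr 1
  rw [Nat.card_eq_fintype_card, Fintype.card_subtype_compl, Fintype.card_coe]

theorem conj_core (H : Subgroup (Perm X)) [hHn : H.Normal] (p : ℕ) [Fact p.Prime] (c₁ c₂ : Perm X) (Q₁ Q₂ : Subgroup (Perm X))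
    (hf₁ : ∀ q ∈ Q₁, ∀ x ∈ c₁.support, q x = x) (hf₂ : ∀ q ∈ Q₂, ∀ x ∈ c₂.support, q x = x)
    (hQ₁ : Q₁ ≤ H) (hQ₂ : Q₂ ≤ H) (g₀ : Perm X) (hg₀ : g₀ ∈ H) (hg : g₀ * c₁ * g₀⁻¹ = c₂)
    (hc₁ : Nat.card Q₁ = p ^ (Nat.card ↥(fixerOf c₂ ⊓ H)).factorization p)
    (hc₂ : Nat.card Q₂ = p ^ (Nat.card ↥(fixerOf c₂ ⊓ H)).factorization p) :
    ∃ g ∈ H, (Q₂ ⊔ Subgroup.zpowers c₂) = (Q₁ ⊔ Subgroup.zpowers c₁).map (MulAut.conj g).toMonoidHom := by
  set Q₁' := Q₁.map (MulAut.conj g₀).toMonoidHom with hQ₁'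
  have hle₁ : Q₁' ≤ fixerOf c₂ ⊓ H := by
    rintro _ ⟨q, hq, rfl⟩
    refine ⟨mem_fixerOf _ _ ?_, hHn.conj_mem q (hQ₁ hq) g₀⟩
    intro x hx
    have h0 : c₂ x = g₀ (c₁ (g₀⁻¹ x)) := by rw [← hg]; rfl
    have h1 : c₁ (g₀⁻¹ x) ≠ g₀⁻¹ x := by
      intro h
      apply mem_support.1 hx
      rw [h0, h]
      exact Equiv.apply_symm_apply g₀ x
    have h2 := hf₁ q hq (g₀⁻¹ x) (mem_support.2 h1)
    change g₀ (q (g₀⁻¹ x)) = x
    rw [h2]
    exact Equiv.apply_symm_apply g₀ x
  have hle₂ : Q₂ ≤ fixerOf c₂ ⊓ H := fun q hq => ⟨mem_fixerOf _ _ (hf₂ q hq), hQ₂ hq⟩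
  have hc₁' : Nat.card Q₁' = p ^ (Nat.card ↥(fixerOf c₂ ⊓ H)).factorization p := by
    rw [hQ₁', Subgroup.card_map_of_injective (f := (MulAut.conj g₀).toMonoidHom) (MulAut.conj g₀).injective, hc₁]
  obtain ⟨h, hh, hconj⟩ := conj_of_sylow_in (fixerOf c₂ ⊓ H) Q₁' Q₂ hle₁ hle₂ hc₁' hc₂
  refine ⟨h * g₀, H.mul_mem hh.2 hg₀, ?_⟩
  have hcomp : (MulAut.conj (h * g₀)).toMonoidHom = (MulAut.conj h).toMonoidHom.comp (MulAut.conj g₀).toMonoidHom := by
    ext x y
    simp [MulAut.conj_apply, mul_assoc]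
  rw [Subgroup.map_sup, hcomp, ← Subgroup.map_map, ← Subgroup.map_map, ← hQ₁', ← hconj]
  congr 1
  rw [MonoidHom.map_zpowers, MonoidHom.map_zpowers]
  congr 1
  change c₂ = h * (g₀ * c₁ * g₀⁻¹) * h⁻¹
  rw [hg, fixerOf_commute c₂ h hh.1, mul_inv_cancel_right]

theorem conj_perm (hn : Fintype.card X % 4 = 3) (N₁ N₂ : Subgroup (Perm X)) (h₁ : Group.IsNilpotent N₁)
    (h₂ : Group.IsNilpotent N₂) (c₁ : Nat.card N₁ = 3 * 2 ^ e (Fintype.card X - 3))
    (c₂ : Nat.card N₂ = 3 * 2 ^ e (Fintype.card X - 3)) :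
    ∃ g : Perm X, N₂ = N₁.map (MulAut.conj g).toMonoidHom := by
  have hE : 6 ≤ Fintype.card X → e (Fintype.card X - 4) < e (Fintype.card X - 3) := by
    intro h6
    obtain ⟨l, hl⟩ : ∃ l, Fintype.card X = 4 * l + 7 := ⟨(Fintype.card X - 7) / 4, by omega⟩
    rw [hl, show 4 * l + 7 - 3 = (4 * l + 3) + 1 by omega, show 4 * l + 7 - 4 = 4 * l + 3 by omega,
      e_succ (4 * l + 3)]
    have := v_four (k := 4 * l + 3 + 1) (by omega) (by omega)
    omega
  obtain ⟨a₁, Q₁, t₁, cq₁, f₁, rfl⟩ := extremal_structure _ hE N₁ h₁ c₁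
  obtain ⟨a₂, Q₂, t₂, cq₂, f₂, rfl⟩ := extremal_structure _ hE N₂ h₂ c₂
  obtain ⟨g₀, hg₀⟩ := isConj_iff.1 (isConj_of_cycleType_eq (t₁.trans t₂.symm))
  haveI : Fact (Nat.Prime 2) := ⟨Nat.prime_two⟩
  have hcard : Nat.card ↥(fixerOf a₂ ⊓ ⊤) = (Fintype.card X - 3).factorial := by
    rw [inf_top_eq, card_fixerOf, t₂.card_support]
  obtain ⟨g, -, hg⟩ := conj_core ⊤ 2 a₁ a₂ Q₁ Q₂ f₁ f₂ le_top le_top g₀ trivial hg₀
    (by rw [hcard, cq₁]; rfl) (by rw [hcard, cq₂]; rfl)
  exact ⟨g, hg⟩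

end Cfsg.Agent.Lib.NilpSym
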