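import Mathlib
import Cfsg.Agent.Lib.NilpSym.Extremal

set_option autoImplicit false

namespace Cfsg.Agent.Lib.NilpSym

open Nat

/-- The bound for nilpotent subgroups of alternating groups. -/
def B' (n : ℕ) : ℕ :=
  if n = 5 then 5 else if n = 6 then 9 else if n = 9 then 81 else if n = 3 then 3
  else if n ≤ 1 then 1 else if n % 4 = 3 then 3 * 2 ^ (e (n - 3) - 1) else 2 ^ (e n - 1)

lemma e_pos_of_two_le {n : ℕ} (h : 2 ≤ n) : 1 ≤ e n := by
  have h2 : e 2 = 1 := by norm_num [e_eq]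
  rw [← h2]
  exact e_mono h

def IsSp (n : ℕ) : Prop := n = 0 ∨ n = 1 ∨ n = 3 ∨ n = 5 ∨ n = 6 ∨ n = 9

lemma two_B'_generic {n : ℕ} (h : ¬ IsSp n) : 2 * B' n = B n := by
  unfold IsSp at h
  push Not at h
  obtain ⟨h0, h1, h3, h5, h6, h9⟩ := h
  have hn : ¬ n ≤ 1 := by omega
  simp only [B', h5, h6, h9, h3, hn, if_false, B]
  split_ifs with h4
  · have := e_pos_of_two_le (n := n - 3) (by omega)
    obtain ⟨E, hE⟩ : ∃ E, e (n - 3) = E + 1 := ⟨e (n - 3) - 1, by omega⟩
    rw [hE, Nat.add_sub_cancel, pow_succ]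
    ring
  · have := e_pos_of_two_le (n := n) (by omega)
    obtain ⟨E, hE⟩ : ∃ E, e n = E + 1 := ⟨e n - 1, by omega⟩
    rw [hE, Nat.add_sub_cancel, pow_succ]
    ring

lemma sp_cases {n : ℕ} (h : IsSp n) (P : ℕ → Prop) (h0 : P 0) (h1 : P 1) (h3 : P 3) (h5 : P 5) (h6 : P 6)
    (h9 : P 9) : P n := by
  rcases h with rfl | rfl | rfl | rfl | rfl | rfl <;> assumption

lemma B_le_two_B' (n : ℕ) : B n ≤ 2 * B' n := by
  by_cases h : IsSp n
  · rcases h with rfl | rfl | rfl | rfl | rfl | rfl <;> norm_num [B, B', e_eq]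
  · rw [two_B'_generic h]

lemma B'_le_B (n : ℕ) : B' n ≤ B n := by
  by_cases h : IsSp n
  · rcases h with rfl | rfl | rfl | rfl | rfl | rfl <;> norm_num [B, B', e_eq]
  · have := two_B'_generic h
    omega

lemma B'_mul (a b : ℕ) : B' a * B' b ≤ B' (a + b) := by
  have h := B_le_two_B' (a + b)
  have hm := B_mul_le a b
  by_cases ha : IsSp a
  · by_cases hb : IsSp b
    · rcases ha with rfl | rfl | rfl | rfl | rfl | rfl <;>
        rcases hb with rfl | rfl | rfl | rfl | rfl | rfl <;> norm_num [B', e_eq]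
    · have h2 := two_B'_generic hb
      have h3 := B'_le_B a
      have h4 : 2 * (B' a * B' b) ≤ 2 * B' (a + b) := by
        calc 2 * (B' a * B' b) = B' a * (2 * B' b) := by ring
          _ = B' a * B b := by rw [h2]
          _ ≤ B a * B b := Nat.mul_le_mul_right _ h3
          _ ≤ B (a + b) := hm
          _ ≤ _ := h
      omega
  · have h2 := two_B'_generic ha
    by_cases hb : IsSp b
    · have h3 := B'_le_B b
      have h4 : 2 * (B' a * B' b) ≤ 2 * B' (a + b) := by
        calc 2 * (B' a * B' b) = (2 * B' a) * B' b := by ring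
          _ = B a * B' b := by rw [h2]
          _ ≤ B a * B b := Nat.mul_le_mul_left _ h3
          _ ≤ B (a + b) := hm
          _ ≤ _ := h
      omega
    · have h3 := two_B'_generic hb
      have h4 : 2 * (B' a * B' b) ≤ 2 * B' (a + b) := by
        calc 2 * (B' a * B' b) ≤ (2 * B' a) * (2 * B' b) := by nlinarith [Nat.zero_le (B' a * B' b)]
          _ = B a * B b := by rw [h2, h3]
          _ ≤ B (a + b) := hm
          _ ≤ _ := h
      omega

lemma two_B_le (n : ℕ) : 2 * B n ≤ B (n + 3) := by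
  obtain ⟨k, r, hr, rfl⟩ : ∃ k r, r < 4 ∧ n = 4 * k + r := ⟨n / 4, n % 4, by omega, by omega⟩
  have h44 := e44 k
  have h8 : 8 * 2 ^ e (4 * k) ≤ 2 ^ e (4 * (k + 1)) := by
    calc 8 * 2 ^ e (4 * k) = 2 ^ (e (4 * k) + 3) := by rw [pow_add]; ring
      _ ≤ _ := Nat.pow_le_pow_right (by norm_num) h44
  have hp : 0 < 2 ^ e (4 * k) := by positivity
  rw [B_form k r hr]
  interval_cases r
  · rw [show 4 * k + 0 + 3 = 4 * k + 3 by ring, B_form k 3 (by norm_num)]
    simp only [c]
    norm_num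
    omega
  · rw [show 4 * k + 1 + 3 = 4 * (k + 1) + 0 by ring, B_form _ 0 (by norm_num)]
    simp only [c]
    norm_num
    omega
  · rw [show 4 * k + 2 + 3 = 4 * (k + 1) + 1 by ring, B_form _ 1 (by norm_num)]
    simp only [c]
    norm_num
    omega
  · rw [show 4 * k + 3 + 3 = 4 * (k + 1) + 2 by ring, B_form _ 2 (by norm_num)]
    simp only [c]
    norm_num
    omega

lemma two_pow_le_B' {m : ℕ} (hm : 2 ≤ m) : 2 ^ (e m - 1) ≤ B' m := by
  have h1 := two_pow_e_le m
  have h2 := B_le_two_B' m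
  have h3 := e_pos_of_two_le hm
  obtain ⟨E, hE⟩ : ∃ E, e m = E + 1 := ⟨e m - 1, by omega⟩
  rw [hE, Nat.add_sub_cancel]
  rw [hE, pow_succ] at h1
  omega

lemma coprime_B' {a b m : ℕ} (ha : 2 ≤ a) (hb : 2 ≤ b) (hab : a * b ≤ m) (hc : Nat.Coprime a b) :
    B a * B b ≤ B' m := by
  by_cases hsp : a + b + 3 ≤ a * b
  · have h1 : a + b + 3 ≤ m := hsp.trans hab
    obtain ⟨r, rfl⟩ := Nat.exists_eq_add_of_le h1
    have h2 : B a * B b ≤ B (a + b + r) := B_sup (by omega)
    have h3 := two_B_le (a + b + r)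
    have h4 := B_le_two_B' (a + b + 3 + r)
    rw [show a + b + 3 + r = a + b + r + 3 by ring] at h4 ⊢
    omega
  · -- small cases
    have hcases : (a = 2 ∧ b = 3) ∨ (a = 3 ∧ b = 2) := by
      by_cases ha2 : a = 2
      · subst ha2
        have : b ≤ 4 := by omega
        interval_cases b
        · revert hc; decide
        · simp
        · revert hc; decide
      · by_cases hb2 : b = 2
        · subst hb2
          have : a ≤ 4 := by omega
          interval_cases a
          · exact absurd rfl ha2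
          · simp
          · revert hc; decide
        · exfalso
          apply hsp
          obtain ⟨a', rfl⟩ : ∃ a', a = a' + 3 := ⟨a - 3, by omega⟩
          obtain ⟨b', rfl⟩ : ∃ b', b = b' + 3 := ⟨b - 3, by omega⟩
          nlinarith
    have h6 : 6 ≤ m := by
      rcases hcases with ⟨rfl, rfl⟩ | ⟨rfl, rfl⟩ <;> omega
    have h1 : B a * B b = 6 := by
      rcases hcases with ⟨rfl, rfl⟩ | ⟨rfl, rfl⟩ <;> norm_num [B, e_eq]
    have h2 := B_mono h6
    have h3 : B 6 = 16 := by norm_num [B, e_eq]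
    have h4 := B_le_two_B' m
    omega

lemma big' {m : ℕ} (hm : 32 ≤ m) : 4 * m ^ 2 * 3 ^ (m - 1) ≤ 4 ^ (m - 1) := by
  induction m, hm using Nat.le_induction with
  | base => norm_num
  | succ m hm ih =>
    have h1 : m + 1 - 1 = m - 1 + 1 := by omega
    rw [h1, pow_succ, pow_succ]
    have h2 : (m + 1) ^ 2 * 3 ≤ m ^ 2 * 4 := by nlinarith
    calc 4 * (m + 1) ^ 2 * (3 ^ (m - 1) * 3) = 4 * ((m + 1) ^ 2 * 3) * 3 ^ (m - 1) := by ring
      _ ≤ 4 * (m ^ 2 * 4) * 3 ^ (m - 1) := by gcongr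
      _ = (4 * m ^ 2 * 3 ^ (m - 1)) * 4 := by ring
      _ ≤ 4 ^ (m - 1) * 4 := Nat.mul_le_mul_right _ ih

lemma three_pow_le_of_big' {m : ℕ} (hm : 32 ≤ m) : 4 * 3 ^ (m - 1) ≤ 4 ^ e m := by
  have h1 := e_ge (show m ≠ 0 by omega)
  set L := Nat.log 2 m with hL
  have h2 : 2 ^ L ≤ m := Nat.pow_log_le_self 2 (by omega)
  have h3 : 4 ^ L ≤ m ^ 2 := by
    calc 4 ^ L = (2 ^ L) ^ 2 := by
          rw [← pow_mul, mul_comm, pow_mul]; norm_num
      _ ≤ m ^ 2 := Nat.pow_le_pow_left h2 2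
  have h4 : 4 ^ L * (4 * 3 ^ (m - 1)) ≤ 4 ^ (m - 1) := by
    calc 4 ^ L * (4 * 3 ^ (m - 1)) ≤ m ^ 2 * (4 * 3 ^ (m - 1)) := Nat.mul_le_mul_right _ h3
      _ = 4 * m ^ 2 * 3 ^ (m - 1) := by ring
      _ ≤ _ := big' hm
  have h5 : m - 1 ≤ L + e m := by omega
  have h6 : 4 ^ (m - 1) ≤ 4 ^ L * 4 ^ e m := by
    rw [← pow_add]
    exact Nat.pow_le_pow_right (by norm_num) h5
  exact Nat.le_of_mul_le_mul_left (h4.trans h6) (by positivity)

/-- The key estimate for an odd prime power. -/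
theorem pp_bound' {p a : ℕ} (hp : p.Prime) (hodd : p ≠ 2) (ha : a ≠ 0) :
    p ^ ((p ^ a) !).factorization p ≤ B' (p ^ a) := by
  haveI : Fact p.Prime := ⟨hp⟩
  set m := p ^ a with hm
  set v := (m !).factorization p with hv
  have hp3 : 3 ≤ p := by
    have := hp.two_le
    omega
  have hmv : (p - 1) * v = m - 1 := by
    have h := sub_one_mul_padicValNat_factorial (p := p) m
    have h2 : (Nat.digits p m).sum = 1 := by
      have e1 : m = p ^ a * 1 := by rw [hm, mul_one]
      rw [e1, Nat.digits_base_pow_mul hp.one_lt (by norm_num)]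
      simp [Nat.digits_of_lt p 1 (by norm_num) hp.one_lt]
    rw [h2, ← Nat.factorization_def _ hp] at h
    exact h
  have hm3 : 3 ≤ m := by
    calc 3 ≤ p := hp3
      _ = p ^ 1 := (pow_one p).symm
      _ ≤ p ^ a := Nat.pow_le_pow_right hp.pos (Nat.one_le_iff_ne_zero.2 ha)
  have h2v : (p ^ v) ^ 2 ≤ 3 ^ (m - 1) := by
    calc (p ^ v) ^ 2 = (p ^ 2) ^ v := by rw [← pow_mul, ← pow_mul, mul_comm]
      _ ≤ (3 ^ (p - 1)) ^ v := Nat.pow_le_pow_left (sq_le_three_pow hp3) v
      _ = 3 ^ (m - 1) := by rw [← pow_mul, hmv]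
  by_cases hbig : 32 ≤ m
  · have h1 := three_pow_le_of_big' hbig
    have h3 : (2 * p ^ v) ^ 2 ≤ (2 ^ e m) ^ 2 := by
      calc (2 * p ^ v) ^ 2 = 4 * (p ^ v) ^ 2 := by ring
        _ ≤ 4 * 3 ^ (m - 1) := Nat.mul_le_mul_left _ h2v
        _ ≤ 4 ^ e m := h1
        _ = (2 ^ e m) ^ 2 := by rw [← pow_mul, mul_comm, pow_mul]; norm_num
    have h4 := (Nat.pow_le_pow_iff_left (by norm_num)).1 h3
    have h5 := two_pow_e_le m
    have h6 := B_le_two_B' m
    omega
  · have hmodd : m % 2 = 1 := by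
      have : Odd m := (hp.odd_of_ne_two hodd).pow
      exact Nat.odd_iff.1 this
    have hprime : ∀ q, q.Prime → m = q → p ^ v = q := by
      intro q hq hmq
      have hpm : p ∣ m := dvd_pow_self p ha
      have hpe : p = m := by
        rw [hmq] at hpm ⊢
        exact (Nat.prime_dvd_prime_iff_eq hp hq).1 hpm
      have hv1 : v = 1 := by
        rw [← hpe] at hmv
        have h1 : (p - 1) * v = (p - 1) * 1 := by rw [hmv, mul_one]
        exact Nat.eq_of_mul_eq_mul_left (by omega) h1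
      rw [hv1, pow_one, hpe, hmq]
    have hcheck : ∀ n, 3 ≤ n → n < 32 → n % 2 = 1 → n ≠ 3 → n ≠ 5 → n ≠ 7 → n ≠ 9 → n ≠ 11 → n ≠ 13 →
        n ≠ 15 → 3 ^ (n - 1) ≤ (B' n) ^ 2 := by
      intro n h1 h2 h3 h33 h5 h7 h9 h11 h13 h15
      interval_cases n <;> first | omega | (norm_num [B', e_eq]; done)
    have h15 : m ≠ 15 := by
      intro h15
      have hd : p ∣ 3 * 5 := by
        have : p ∣ m := dvd_pow_self p ha
        rw [h15] at this
        simpa using this
      rcases (Nat.Prime.dvd_mul hp).1 hd with h | h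
      · have hp' : p = 3 := (Nat.prime_dvd_prime_iff_eq hp Nat.prime_three).1 h
        subst hp'
        have ha3 : a < 3 := by
          by_contra hcon
          have : 3 ^ 3 ≤ 3 ^ a := Nat.pow_le_pow_right (by norm_num) (by omega)
          omega
        interval_cases a <;> omega
      · have hp' : p = 5 := (Nat.prime_dvd_prime_iff_eq hp (by norm_num)).1 h
        subst hp'
        have ha3 : a < 2 := by
          by_contra hcon
          have : 5 ^ 2 ≤ 5 ^ a := Nat.pow_le_pow_right (by norm_num) (by omega)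
          omega
        interval_cases a <;> omega
    by_cases h3 : m = 3
    · rw [hprime 3 Nat.prime_three h3, h3]; norm_num [B']
    by_cases h5 : m = 5
    · rw [hprime 5 (by norm_num) h5, h5]; norm_num [B']
    by_cases h7 : m = 7
    · rw [hprime 7 (by norm_num) h7, h7]; norm_num [B', e_eq]
    by_cases h11 : m = 11
    · rw [hprime 11 (by norm_num) h11, h11]; norm_num [B', e_eq]
    by_cases h13 : m = 13
    · rw [hprime 13 (by norm_num) h13, h13]; norm_num [B', e_eq]
    by_cases h9 : m = 9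
    · -- `p = 3`, `v = 4`
      have hp' : p = 3 := by
        have h1 : p ∣ 3 ^ 2 := by
          have : p ∣ m := dvd_pow_self p ha
          rw [h9] at this
          simpa using this
        exact (Nat.prime_dvd_prime_iff_eq hp Nat.prime_three).1 (hp.dvd_of_dvd_pow h1)
      subst hp'
      rw [h9] at hmv ⊢
      have hv4 : v = 4 := by omega
      rw [hv4]
      norm_num [B']
    · have h3' := hcheck m hm3 (by omega) hmodd h3 h5 h7 h9 h11 h13 h15
      exact (Nat.pow_le_pow_iff_left (by norm_num)).1 (h2v.trans h3')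

end Cfsg.Agent.Lib.NilpSym
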