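import Mathlib
import Cfsg.Agent.Lib.NilpSym.ArithAlt

set_option autoImplicit false

namespace Cfsg.Agent.Lib.NilpSym

open Equiv Equiv.Perm MulAction

section
variable {G X : Type} [Group G] [MulAction G X] [Finite G] [Finite X] [FaithfulSMul G X]

theorem coprime_orbits [IsPretransitive G X] (hnil : Group.IsNilpotent G) (P K : Subgroup G)
    (hcomm : ∀ a ∈ P, ∀ b ∈ K, a * b = b * a)
    (hcop : Nat.Coprime (Nat.card K) (Nat.card P))
    (hgen : ∀ g : G, ∃ a ∈ P, ∃ b ∈ K, g = a * b) (hP : P ≠ ⊥) (hK : K ≠ ⊥)
    (hcard : Nat.card G = Nat.card K * Nat.card P) (x₀ : X) :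
    ∃ a b, 2 ≤ a ∧ 2 ≤ b ∧ a * b ≤ Nat.card X ∧ Nat.Coprime a b ∧ Nat.card G ≤ B a * B b := by
  have hcomm' : ∀ a ∈ K, ∀ b ∈ P, a * b = b * a := fun a ha b hb => (hcomm b hb a ha).symm
  have hgen' : ∀ g : G, ∃ a ∈ K, ∃ b ∈ P, g = a * b := by
    intro g
    obtain ⟨a, ha, b, hb, rfl⟩ := hgen g
    exact ⟨b, hb, a, ha, hcomm a ha b hb⟩
  haveI hfP : FaithfulSMul P (orbit P x₀) := faithful_on_orbit x₀ hcomm hgen
  haveI hfK : FaithfulSMul K (orbit K x₀) := faithful_on_orbit x₀ hcomm' hgen'
  have hmove : ∀ (A : Subgroup G) [FaithfulSMul A (orbit A x₀)], A ≠ ⊥ → 2 ≤ (orbit A x₀).ncard := by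
    intro A _ hA
    have h1 : ∃ a ∈ A, a • x₀ ≠ x₀ := by
      by_contra hcon
      push Not at hcon
      apply hA
      rw [eq_bot_iff]
      intro y hy
      have : (⟨y, hy⟩ : A) = 1 := by
        apply FaithfulSMul.eq_of_smul_eq_smul (α := orbit A x₀)
        rintro ⟨z, a, rfl⟩
        apply Subtype.ext
        change y • ((a : G) • x₀) = (1 : A) • ((a : G) • x₀)
        rw [hcon a a.2, hcon y hy]
        simp
      simpa using congrArg Subtype.val this
    obtain ⟨a, ha, hax⟩ := h1
    exact (Set.one_lt_ncard (Set.toFinite _)).2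
      ⟨a • x₀, ⟨⟨a, ha⟩, rfl⟩, x₀, mem_orbit_self x₀, hax⟩
  refine ⟨(orbit P x₀).ncard, (orbit K x₀).ncard, hmove P hP, hmove K hK, ?_, ?_, ?_⟩
  · choose pp hpp using (fun u : orbit P x₀ => u.2)
    choose qq hqq using (fun u : orbit K x₀ => u.2)
    let f : orbit P x₀ × orbit K x₀ → X := fun w => ((pp w.1 : G) * (qq w.2 : G)) • x₀
    have hinj : Function.Injective f := by
      rintro ⟨u, v⟩ ⟨u', v'⟩ h
      have h' : ((pp u : G) * (qq v : G)) • x₀ = ((pp u' : G) * (qq v' : G)) • x₀ := h
      set p : G := ((pp u : P) : G) with hp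
      set q : G := ((qq v : K) : G) with hq
      set p' : G := ((pp u' : P) : G) with hp'
      set q' : G := ((qq v' : K) : G) with hq'
      have mp : p ∈ P := (pp u).2
      have mp' : p' ∈ P := (pp u').2
      have mq : q ∈ K := (qq v).2
      have mq' : q' ∈ K := (qq v').2
      have hy : ((p'⁻¹ * p) * (q'⁻¹ * q)) • x₀ = x₀ := by
        have e1 : (p'⁻¹ * p) * (q'⁻¹ * q) = (p' * q')⁻¹ * (p * q) := by
          have hc1 : (p'⁻¹ * p) * q'⁻¹ = q'⁻¹ * (p'⁻¹ * p) :=
            hcomm _ (P.mul_mem (P.inv_mem mp') mp) _ (K.inv_mem mq')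
          rw [mul_inv_rev, ← mul_assoc, hc1]
          group
        rw [e1, mul_smul, h', inv_smul_smul]
      have hab : (p'⁻¹ * p)⁻¹ • x₀ = (q'⁻¹ * q) • x₀ := by
        rw [mul_smul] at hy
        rw [inv_smul_eq_iff]
        exact hy.symm
      have h1 := fix_of_eq_smul hcomm hcop (P.inv_mem (P.mul_mem (P.inv_mem mp') mp))
        (K.mul_mem (K.inv_mem mq') mq) hab
      have h2 : (q'⁻¹ * q) • x₀ = x₀ := hab.symm.trans h1
      have h3 : p • x₀ = p' • x₀ := by
        rw [inv_smul_eq_iff, mul_smul, eq_inv_smul_iff] at h1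
        exact h1.symm
      have h4 : q • x₀ = q' • x₀ := by
        rw [mul_smul, inv_smul_eq_iff] at h2
        exact h2
      have hu : (u : X) = u' := by
        rw [← hpp u, ← hpp u']
        exact h3
      have hv : (v : X) = v' := by
        rw [← hqq v, ← hqq v']
        exact h4
      rw [Subtype.ext hu, Subtype.ext hv]
    have hc := Nat.card_le_card_of_injective f hinj
    rw [Nat.card_prod, Nat.card_coe_set_eq, Nat.card_coe_set_eq] at hc
    exact hc
  · have h1 : (orbit P x₀).ncard ∣ Nat.card P := by
      rw [← index_stabilizer]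
      exact Subgroup.index_dvd_card _
    have h2 : (orbit K x₀).ncard ∣ Nat.card K := by
      rw [← index_stabilizer]
      exact Subgroup.index_dvd_card _
    exact Nat.Coprime.coprime_dvd_left h1 (Nat.Coprime.coprime_dvd_right h2 hcop.symm)
  · have hnilP : Group.IsNilpotent P := inferInstance
    have hnilK : Group.IsNilpotent K := inferInstance
    have hbP : Nat.card P ≤ B (orbit P x₀).ncard :=
      bound _ (orbit P x₀) P (Nat.card_coe_set_eq _) hnilP
    have hbK : Nat.card K ≤ B (orbit K x₀).ncard :=
      bound _ (orbit K x₀) K (Nat.card_coe_set_eq _) hnilK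
    rw [hcard, mul_comm]
    exact Nat.mul_le_mul hbP hbK

end

/-- Restriction of an action to an invariant subset. -/
def resHom {G X : Type} [Group G] [MulAction G X] (p : X → Prop) (hp : ∀ (g : G) x, p (g • x) ↔ p x) :
    G →* Perm {x // p x} where
  toFun g := (toPermHom G X g).subtypePerm (fun x => hp g x)
  map_one' := by ext x; simp
  map_mul' a b := by
    ext x
    exact mul_smul a b (x : X)

lemma resHom_apply {G X : Type} [Group G] [MulAction G X] (p : X → Prop) (hp : ∀ (g : G) x, p (g • x) ↔ p x)
    (g : G) (x : {x // p x}) : ((resHom p hp g x : {x // p x}) : X) = g • (x : X) := rfl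

section
variable {X : Type} [Fintype X] [DecidableEq X] {G : Type} [Group G] [MulAction G X]

lemma sign_split (p : X → Prop) [DecidablePred p] (hp : ∀ (g : G) x, p (g • x) ↔ p x)
    (hp' : ∀ (g : G) x, ¬ p (g • x) ↔ ¬ p x) (g : G) :
    sign (toPermHom G X g) = sign (resHom p hp g) * sign (resHom (fun x => ¬ p x) hp' g) := by
  rw [← sign_subtypeCongr]
  congr 1
  ext x
  by_cases hx : p x
  · rw [Perm.subtypeCongr.left_apply _ _ hx]
    rfl
  · rw [Perm.subtypeCongr.right_apply _ _ hx]
    rfl

end

/-- The induction hypothesis. -/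
def IHyp' (m : ℕ) : Prop :=
  ∀ n < m, ∀ (Y : Type) [Fintype Y] [DecidableEq Y] (H : Type) [Group H] [Finite H] [MulAction H Y]
    [FaithfulSMul H Y], Fintype.card Y = n → Group.IsNilpotent H →
    (∀ h : H, sign (toPermHom H Y h) = 1) → Nat.card H ≤ B' n

section
variable {X : Type} [Fintype X] [DecidableEq X] {G : Type} [Group G] [Finite G] [MulAction G X] [FaithfulSMul G X]

/-- Intransitive step. -/
theorem alt_split {m : ℕ} (IH : IHyp' m) (hm : Fintype.card X = m) (p : X → Prop) [DecidablePred p]
    (hp : ∀ (g : G) x, p (g • x) ↔ p x) (h₁ : 0 < Fintype.card {x // p x})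
    (h₂ : 0 < Fintype.card {x // ¬ p x}) (hnil : Group.IsNilpotent G)
    (heven : ∀ g : G, sign (toPermHom G X g) = 1) : Nat.card G ≤ B' m := by
  have hp' : ∀ (g : G) x, ¬ p (g • x) ↔ ¬ p x := fun g x => not_congr (hp g x)
  let f₁ := resHom (G := G) p hp
  let f₂ := resHom (G := G) (fun x => ¬ p x) hp'
  have hsplit := sign_split p hp hp'
  have hsum : Fintype.card {x // p x} + Fintype.card {x // ¬ p x} = m := by
    rw [Fintype.card_subtype_compl, ← hm]
    have := Fintype.card_subtype_le p
    omega
  let F : G →* f₁.range × f₂.range := f₁.rangeRestrict.prod f₂.rangeRestrict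
  have hinj : Function.Injective F := by
    intro a b h
    apply FaithfulSMul.eq_of_smul_eq_smul (α := X)
    intro z
    have h₁' := congrArg (fun w => (w.1 : Perm {x // p x})) h
    have h₂' := congrArg (fun w => (w.2 : Perm {x // ¬ p x})) h
    by_cases hz : p z
    · have := congrFun (congrArg DFunLike.coe h₁') ⟨z, hz⟩
      exact congrArg Subtype.val this
    · have := congrFun (congrArg DFunLike.coe h₂') ⟨z, hz⟩
      exact congrArg Subtype.val this
  have hc : Nat.card G ≤ Nat.card f₁.range * Nat.card f₂.range := by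
    have := Nat.card_le_card_of_injective F hinj
    rwa [Nat.card_prod] at this
  have hn₁ : Group.IsNilpotent f₁.range :=
    Group.nilpotent_of_surjective f₁.rangeRestrict f₁.rangeRestrict_surjective
  have hn₂ : Group.IsNilpotent f₂.range :=
    Group.nilpotent_of_surjective f₂.rangeRestrict f₂.rangeRestrict_surjective
  by_cases hev : ∀ g : G, sign (f₁ g) = 1
  · have hev₂ : ∀ g : G, sign (f₂ g) = 1 := by
      intro g
      have := hsplit g
      rw [heven g, hev g, one_mul] at this
      exact this.symm
    have b₁ : Nat.card f₁.range ≤ B' (Fintype.card {x // p x}) :=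
      IH _ (by omega) {x // p x} f₁.range rfl hn₁ (by
        rintro ⟨_, g, rfl⟩
        exact hev g)
    have b₂ : Nat.card f₂.range ≤ B' (Fintype.card {x // ¬ p x}) :=
      IH _ (by omega) {x // ¬ p x} f₂.range rfl hn₂ (by
        rintro ⟨_, g, rfl⟩
        exact hev₂ g)
    calc Nat.card G ≤ _ := hc
      _ ≤ _ := Nat.mul_le_mul b₁ b₂
      _ ≤ B' (_ + _) := B'_mul _ _
      _ = B' m := by rw [hsum]
  · push Not at hev
    obtain ⟨g₀, hg₀⟩ := hev
    have hne : F.range ≠ ⊤ := by
      intro htop
      have hmem : ((⟨f₁ g₀, g₀, rfl⟩, 1) : f₁.range × f₂.range) ∈ F.range := by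
        rw [htop]; trivial
      obtain ⟨g, hg⟩ := hmem
      have h1 : f₁ g = f₁ g₀ := congrArg (fun w => (w.1 : Perm {x // p x})) hg
      have h2 : f₂ g = 1 := congrArg (fun w => (w.2 : Perm {x // ¬ p x})) hg
      have h3 := hsplit g
      rw [heven g] at h3
      change 1 = sign (f₁ g) * sign (f₂ g) at h3
      rw [h1, h2, map_one, mul_one] at h3
      exact hg₀ h3.symm
    have hindex : 2 ≤ F.range.index := by
      have hne1 : F.range.index ≠ 1 := fun h => hne (Subgroup.index_eq_one.1 h)
      have hne0 : F.range.index ≠ 0 := Subgroup.index_ne_zero_of_finite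
      omega
    have hcm := Subgroup.card_mul_index F.range
    rw [Nat.card_prod] at hcm
    have hcr : Nat.card F.range = Nat.card G :=
      (Nat.card_congr (MonoidHom.ofInjective hinj).toEquiv).symm
    rw [hcr] at hcm
    have b₁ : Nat.card f₁.range ≤ B (Nat.card {x // p x}) :=
      bound _ {x // p x} f₁.range rfl hn₁
    have b₂ : Nat.card f₂.range ≤ B (Nat.card {x // ¬ p x}) :=
      bound _ {x // ¬ p x} f₂.range rfl hn₂
    have hB : B (Nat.card {x // p x}) * B (Nat.card {x // ¬ p x}) ≤ B m := by
      apply B_sup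
      rw [Nat.card_eq_fintype_card, Nat.card_eq_fintype_card, hsum]
    have h2m := B_le_two_B' m
    have h3 : Nat.card G * 2 ≤ 2 * B' m := by
      calc Nat.card G * 2 ≤ Nat.card G * F.range.index := Nat.mul_le_mul_left _ hindex
        _ = _ := hcm
        _ ≤ _ := Nat.mul_le_mul b₁ b₂
        _ ≤ B m := hB
        _ ≤ _ := h2m
    omega

end

/-- **The bound for alternating groups.** -/
theorem bound_alt : ∀ (m : ℕ) (X : Type) [Fintype X] [DecidableEq X] (G : Type) [Group G] [Finite G]
    [MulAction G X] [FaithfulSMul G X], Fintype.card X = m → Group.IsNilpotent G →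
    (∀ g : G, sign (toPermHom G X g) = 1) → Nat.card G ≤ B' m := by
  intro m
  induction m using Nat.strong_induction_on with
  | _ m IH =>
  intro X _ _ G _ _ _ _ hm hnil heven
  have hm' : Nat.card X = m := by rw [Nat.card_eq_fintype_card, hm]
  have hdvd : Nat.card G ∣ m.factorial := hm' ▸ card_dvd_factorial X G
  have hB'pos : 0 < B' m := by
    have h1 := B_pos m
    have h2 := B_le_two_B' m
    omega
  by_cases htriv : Nat.card G = 1
  · rw [htriv]; exact hB'pos
  by_cases htrans : IsPretransitive G X
  · have hm0 : m ≠ 0 := by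
      rintro rfl
      simp at hdvd
      exact htriv hdvd
    have hm1 : m ≠ 1 := by
      rintro rfl
      simp at hdvd
      exact htriv hdvd
    have hne : Nonempty X := by
      by_contra h
      rw [not_nonempty_iff] at h
      apply hm0
      rw [← hm']
      exact Nat.card_of_isEmpty
    obtain ⟨x₀⟩ := hne
    obtain ⟨p, hp, hpd⟩ := Nat.exists_prime_and_dvd htriv
    haveI : Fact p.Prime := ⟨hp⟩
    obtain ⟨P, K, hKn, hc⟩ := Cfsg.Agent.Lib.Transfer.hasNormalPComplement_of_isNilpotent (p := p) hnil
    have hcard : Nat.card K * Nat.card P = Nat.card G := hc.card_mul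
    have hPcop : Nat.Coprime (Nat.card K) (Nat.card P) := by
      have h1 : Nat.card K = (P : Subgroup G).index := hc.index_eq_card.symm
      rw [h1]
      exact (P.card_coprime_index).symm
    by_cases hK : K = ⊥
    · -- p-group
      have hcP : Nat.card G = Nat.card P := by
        rw [← hcard, hK]; simp
      have hG : IsPGroup p G := by
        intro g
        have : ∃ k, Nat.card P = p ^ k := IsPGroup.iff_card.1 P.isPGroup'
        obtain ⟨k, hk⟩ := this
        refine ⟨k, ?_⟩
        rw [← hk, ← hcP]
        exact pow_card_eq_one'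
      obtain ⟨k, hk⟩ := IsPGroup.iff_card.1 hG
      have hle : k ≤ (m.factorial).factorization p := by
        apply (hp.pow_dvd_iff_le_factorization (Nat.factorial_ne_zero m)).1
        rw [← hk]; exact hdvd
      by_cases hp2 : p = 2
      · subst hp2
        -- 2-group inside the alternating group
        have hnt : Nontrivial X := by
          rw [← Fintype.one_lt_card_iff_nontrivial, hm]
          omega
        have hinj : Function.Injective (toPermHom G X) := by
          intro a b h
          apply FaithfulSMul.eq_of_smul_eq_smul (α := X)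
          intro z
          exact congrFun (congrArg DFunLike.coe h) z
        let φ : G →* alternatingGroup X :=
          (toPermHom G X).codRestrict (alternatingGroup X) (fun g => heven g)
        have hφ : Function.Injective φ := by
          intro a b h
          exact hinj (congrArg Subtype.val h)
        have h1 : Nat.card G ∣ Nat.card (alternatingGroup X) := Subgroup.card_dvd_of_injective _ hφ
        have h2 : 2 * Nat.card (alternatingGroup X) = m.factorial := by
          rw [two_mul_nat_card_alternatingGroup, Nat.card_perm, hm']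
        have h3 : 2 ^ (k + 1) ∣ m.factorial := by
          rw [← h2, pow_succ, mul_comm, ← hk]
          exact Nat.mul_dvd_mul_left 2 h1
        have h4 := (Nat.prime_two.pow_dvd_iff_le_factorization (Nat.factorial_ne_zero m)).1 h3
        have h5 : k ≤ e m - 1 := by
          simp only [e]
          omega
        rw [hk]
        exact (Nat.pow_le_pow_right (by norm_num) h5).trans (two_pow_le_B' (by omega))
      · have hmd : m ∣ p ^ k := by
          rw [← hm', ← hk, ← index_stabilizer_of_transitive G x₀]
          exact Subgroup.index_dvd_card _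
        obtain ⟨a, -, ha⟩ := (Nat.dvd_prime_pow hp).1 hmd
        have ha0 : a ≠ 0 := by
          rintro rfl
          simp at ha
          exact hm1 ha
        rw [hk]
        calc p ^ k ≤ p ^ (m.factorial).factorization p := Nat.pow_le_pow_right hp.pos hle
          _ ≤ B' m := by rw [ha]; exact pp_bound' hp hp2 ha0
    · -- coprime
      have hPne : (P : Subgroup G) ≠ ⊥ := by
        intro h
        have : Nat.card P = 1 := by rw [h]; simp
        rw [P.card_eq_multiplicity] at this
        have h0 : (Nat.card G).factorization p = 0 := by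
          by_contra h0
          rcases Nat.pow_eq_one.1 this with h1 | h1
          · exact hp.one_lt.ne' h1
          · exact h0 h1
        have hne0 : Nat.card G ≠ 0 := Nat.card_pos.ne'
        have := (hp.dvd_iff_one_le_factorization hne0).1 hpd
        omega
      haveI : (P : Subgroup G).Normal := by
        haveI := hnil
        infer_instance
      have hcomm : ∀ a ∈ (P : Subgroup G), ∀ b ∈ K, a * b = b * a := by
        intro a ha b hb
        exact Subgroup.commute_of_normal_of_disjoint _ _ ‹_› hKn hc.disjoint.symm a b ha hb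
      have hgen : ∀ g : G, ∃ a ∈ (P : Subgroup G), ∃ b ∈ K, g = a * b := by
        intro g
        obtain ⟨⟨a, b⟩, hab⟩ := hc.symm.2 g
        exact ⟨a, a.2, b, b.2, hab.symm⟩
      obtain ⟨a, b, ha, hb, hab, hcab, hG⟩ :=
        coprime_orbits hnil P K hcomm hPcop hgen hPne hK hcard.symm x₀
      rw [hm'] at hab
      exact hG.trans (coprime_B' ha hb hab hcab)
  · -- intransitive
    obtain ⟨x, y, hxy⟩ : ∃ x y : X, ∀ g : G, g • x ≠ y := by
      by_contra h
      push Not at h
      exact htrans ⟨h⟩
    classical
    have hinv : ∀ (g : G) z, (g • z ∈ orbit G x) ↔ z ∈ orbit G x := by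
      intro g z
      constructor
      · intro h
        have := mapsTo_smul_orbit g⁻¹ x h
        simpa using this
      · intro h
        exact mapsTo_smul_orbit g x h
    exact alt_split IH hm (fun z => z ∈ orbit G x) hinv
      (Fintype.card_pos_iff.2 ⟨⟨x, mem_orbit_self x⟩⟩)
      (Fintype.card_pos_iff.2 ⟨⟨y, by
        rintro ⟨g, hg⟩
        exact hxy g hg⟩⟩) hnil heven

end Cfsg.Agent.Lib.NilpSym
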