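import Mathlib
import Cfsg.Agent.Lib.NilpSym.AltBound

set_option autoImplicit false

namespace Cfsg.Agent.Lib.NilpSym

open Equiv Equiv.Perm MulAction

variable {X : Type} [Fintype X] [DecidableEq X]

theorem bound_alt_subgroup (N : Subgroup (alternatingGroup X)) (hN : Group.IsNilpotent N) :
    Nat.card N ≤ B' (Fintype.card X) := by
  refine bound_alt (Fintype.card X) X N rfl hN ?_
  intro g
  exact (g : alternatingGroup X).2

lemma fact_half {m : ℕ} (hm : 2 ≤ m) {a : ℕ} (h : 2 * a = m.factorial) : a.factorization 2 = e m - 1 := by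
  have ha : a ≠ 0 := by
    rintro rfl
    exact m.factorial_ne_zero (by simpa using h.symm)
  have h1 : e m = (2 * a).factorization 2 := by
    rw [h]; rfl
  rw [Nat.factorization_mul (by norm_num) ha, Finsupp.add_apply,
    Nat.Prime.factorization_self Nat.prime_two] at h1
  omega

lemma card_sylow_alt (hm : 2 ≤ Fintype.card X) (P : Sylow 2 (alternatingGroup X)) :
    Nat.card P = 2 ^ (e (Fintype.card X) - 1) := by
  haveI : Fact (Nat.Prime 2) := ⟨Nat.prime_two⟩
  haveI : Nontrivial X := Fintype.one_lt_card_iff_nontrivial.1 (by omega)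
  rw [P.card_eq_multiplicity, fact_half hm]
  rw [two_mul_nat_card_alternatingGroup, Nat.card_perm, Nat.card_eq_fintype_card]

/-- Existence of the extremal subgroup of the alternating group. -/
theorem exists_extremal_alt (n : ℕ) (hn3 : 3 ≤ n) (P : Subgroup (alternatingGroup (Fin (n - 3))))
    (hP : Group.IsNilpotent P) :
    ∃ M : Subgroup (alternatingGroup (Fin n)), Group.IsNilpotent M ∧ Nat.card M = 3 * Nat.card P ∧
      Nonempty (M ≃* (↥P × Multiplicative (ZMod 3))) := by
  let ε : Fin (n - 3) ⊕ Fin 3 ≃ Fin n := finSumFinEquiv.trans (finCongr (by omega))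
  let Φ₀ : (↥P × Multiplicative (ZMod 3)) →* Perm (Fin n) :=
    (ε.permCongrHom).toMonoidHom.comp
      ((Equiv.Perm.sumCongrHom (Fin (n - 3)) (Fin 3)).comp
        (MonoidHom.prodMap ((alternatingGroup (Fin (n - 3))).subtype.comp P.subtype) psi3))
  have hsign : ∀ w, Φ₀ w ∈ alternatingGroup (Fin n) := by
    rintro ⟨a, z⟩
    rw [mem_alternatingGroup]
    change sign (ε.permCongr (Perm.sumCongr ((a : alternatingGroup (Fin (n - 3))) : Perm (Fin (n - 3))) (psi3 z))) = 1
    rw [sign_permCongr, sign_sumCongr, psi3_sign, mul_one]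
    exact (a : alternatingGroup (Fin (n - 3))).2
  let Φ : (↥P × Multiplicative (ZMod 3)) →* alternatingGroup (Fin n) :=
    Φ₀.codRestrict _ hsign
  have hΦ₀ : Function.Injective Φ₀ := by
    intro a b h
    have h1 := ε.permCongrHom.injective h
    have h2 := Equiv.Perm.sumCongrHom_injective h1
    have h3 := congrArg Prod.fst h2
    have h4 := congrArg Prod.snd h2
    exact Prod.ext (Subtype.ext (Subtype.ext h3)) (psi3_inj h4)
  have hΦ : Function.Injective Φ := by
    intro a b h
    exact hΦ₀ (congrArg Subtype.val h)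
  refine ⟨Φ.range, ?_, ?_, ⟨(MonoidHom.ofInjective hΦ).symm⟩⟩
  · have : Group.IsNilpotent (↥P × Multiplicative (ZMod 3)) := inferInstance
    exact Group.nilpotent_of_surjective Φ.rangeRestrict Φ.rangeRestrict_surjective
  · rw [← Nat.card_congr (MonoidHom.ofInjective hΦ).toEquiv, Nat.card_prod]
    have : Nat.card (Multiplicative (ZMod 3)) = 3 := by
      simp [Nat.card_eq_fintype_card, ZMod.card]
    rw [this, mul_comm]

lemma card_fixerOf_alt (c : Perm X) (hc : c.IsThreeCycle) (h5 : 5 ≤ Fintype.card X) :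
    2 * Nat.card ↥(fixerOf c ⊓ alternatingGroup X) = (Fintype.card X - 3).factorial := by
  let A := {x // x ∉ c.support}
  have hcA : Fintype.card A = Fintype.card X - 3 := by
    change Fintype.card {x // x ∉ c.support} = _
    rw [Fintype.card_subtype_compl, Fintype.card_coe, hc.card_support]
  haveI : Nontrivial A := Fintype.one_lt_card_iff_nontrivial.1 (by omega)
  have heq : fixerOf c ⊓ alternatingGroup X =
      (alternatingGroup A).map (ofSubtype : Perm A →* Perm X) := by
    ext x
    constructor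
    · rintro ⟨⟨r, rfl⟩, hx⟩
      refine ⟨r, ?_, rfl⟩
      have hx' : ofSubtype r ∈ alternatingGroup X := hx
      change r ∈ alternatingGroup A
      rw [mem_alternatingGroup] at hx' ⊢
      rwa [sign_ofSubtype] at hx'
    · rintro ⟨r, hr, rfl⟩
      refine ⟨⟨r, rfl⟩, ?_⟩
      have hr' : r ∈ alternatingGroup A := hr
      change ofSubtype r ∈ alternatingGroup X
      rw [mem_alternatingGroup] at hr' ⊢
      rwa [sign_ofSubtype]
  rw [heq, Subgroup.card_map_of_injective ofSubtype_injective, two_mul_nat_card_alternatingGroup,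
    Nat.card_perm, Nat.card_eq_fintype_card, hcA]

/-- Conjugacy in the alternating group. -/
theorem conj_alt (hn : Fintype.card X % 4 = 3) (h7 : 7 ≤ Fintype.card X)
    (N₁ N₂ : Subgroup (alternatingGroup X)) (h₁ : Group.IsNilpotent N₁) (h₂ : Group.IsNilpotent N₂)
    (c₁ : Nat.card N₁ = 3 * 2 ^ (e (Fintype.card X - 3) - 1))
    (c₂ : Nat.card N₂ = 3 * 2 ^ (e (Fintype.card X - 3) - 1)) :
    ∃ g : alternatingGroup X, N₂ = N₁.map (MulAut.conj g).toMonoidHom := by
  have hE : 6 ≤ Fintype.card X → e (Fintype.card X - 4) < e (Fintype.card X - 3) - 1 := by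
    intro _
    obtain ⟨l, hl⟩ : ∃ l, Fintype.card X = 4 * l + 7 := ⟨(Fintype.card X - 7) / 4, by omega⟩
    rw [hl, show 4 * l + 7 - 3 = (4 * l + 3) + 1 by omega, show 4 * l + 7 - 4 = 4 * l + 3 by omega,
      e_succ (4 * l + 3)]
    have := v_four (k := 4 * l + 3 + 1) (by omega) (by omega)
    omega
  have hpull : ∀ N : Subgroup (alternatingGroup X), Group.IsNilpotent N →
      Group.IsNilpotent (N.map (alternatingGroup X).subtype) := by
    intro N hN
    exact Group.nilpotent_of_surjective ((alternatingGroup X).subtype.subgroupMap N)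
      ((alternatingGroup X).subtype.subgroupMap_surjective N)
  have hcardm : ∀ N : Subgroup (alternatingGroup X),
      Nat.card (N.map (alternatingGroup X).subtype) = Nat.card N := fun N =>
    Subgroup.card_map_of_injective (alternatingGroup X).subtype_injective
  obtain ⟨a₁, Q₁, t₁, cq₁, f₁, e₁⟩ := extremal_structure _ hE (N₁.map (alternatingGroup X).subtype)
    (hpull _ h₁) (by rw [hcardm, c₁])
  obtain ⟨a₂, Q₂, t₂, cq₂, f₂, e₂⟩ := extremal_structure _ hE (N₂.map (alternatingGroup X).subtype)
    (hpull _ h₂) (by rw [hcardm, c₂])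
  have hQ₁ : Q₁ ≤ alternatingGroup X := by
    have : Q₁ ≤ N₁.map (alternatingGroup X).subtype := by rw [e₁]; exact le_sup_left
    exact this.trans (Subgroup.map_subtype_le _)
  have hQ₂ : Q₂ ≤ alternatingGroup X := by
    have : Q₂ ≤ N₂.map (alternatingGroup X).subtype := by rw [e₂]; exact le_sup_left
    exact this.trans (Subgroup.map_subtype_le _)
  obtain ⟨g₁, hg₁⟩ := isConj_iff.1 (isConj_of_cycleType_eq (t₁.trans t₂.symm))
  -- correct the parity
  obtain ⟨g₀, hg₀, hg₀c⟩ : ∃ g₀ ∈ alternatingGroup X, g₀ * a₁ * g₀⁻¹ = a₂ := by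
    by_cases hs : sign g₁ = 1
    · exact ⟨g₁, hs, hg₁⟩
    · -- two points outside the support
      have hcard : 1 < (a₂.supportᶜ).card := by
        rw [Finset.card_compl, t₂.card_support]
        omega
      obtain ⟨u, hu, v, hv, huv⟩ := Finset.one_lt_card.1 hcard
      have hs' : sign g₁ = -1 := by
        rcases Int.units_eq_one_or (sign g₁) with h | h
        · exact absurd h hs
        · exact h
      refine ⟨swap u v * g₁, ?_, ?_⟩
      · rw [mem_alternatingGroup, Perm.sign_mul, sign_swap huv, hs']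
        rfl
      · have hd : Disjoint (swap u v) a₂ := by
          intro x
          by_cases hx : x ∈ a₂.support
          · left
            apply swap_apply_of_ne_of_ne
            · rintro rfl
              exact (Finset.mem_compl.1 hu) hx
            · rintro rfl
              exact (Finset.mem_compl.1 hv) hx
          · right
            simpa using hx
        have hcomm : swap u v * a₂ = a₂ * swap u v := hd.commute
        calc swap u v * g₁ * a₁ * (swap u v * g₁)⁻¹
            = swap u v * (g₁ * a₁ * g₁⁻¹) * (swap u v)⁻¹ := by group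
          _ = swap u v * a₂ * (swap u v)⁻¹ := by rw [hg₁]
          _ = a₂ := by rw [hcomm, mul_inv_cancel_right]
  haveI : Fact (Nat.Prime 2) := ⟨Nat.prime_two⟩
  have hfac : (Nat.card ↥(fixerOf a₂ ⊓ alternatingGroup X)).factorization 2 = e (Fintype.card X - 3) - 1 :=
    fact_half (by omega) (card_fixerOf_alt a₂ t₂ (by omega))
  obtain ⟨g, hg, hgc⟩ := conj_core (alternatingGroup X) 2 a₁ a₂ Q₁ Q₂ f₁ f₂ hQ₁ hQ₂ g₀ hg₀ hg₀c
    (by rw [hfac, cq₁]) (by rw [hfac, cq₂])
  refine ⟨⟨g, hg⟩, ?_⟩
  apply Subgroup.map_injective (alternatingGroup X).subtype_injective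
  rw [e₂, hgc, ← e₁, Subgroup.map_map, Subgroup.map_map]
  congr 1

end Cfsg.Agent.Lib.NilpSym
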